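import Cfsg.Agent.KFacts.RgdTI
import Cfsg.Agent.KFacts.RgdCharP
import Cfsg.Agent.H380.RC.Rules

/-!
# S3509, exceptional groups: the long root rule (helper579), abstract part

`R` a root group datum with root elements `e x t` (`t ∈ K`), `a` a dominant long root with `⟨x, a^∨⟩ = x_j`,
`Q = VJ J`, `J = {i ≠ j}`; `c x` the structure constant of `x`, `a - x`.

* `Hs.lin` : `⁅w, e x t⁆ = e a (c t)` for `w ∈ Q`;
* `Hs.final` : `y ∈ P_J` of order prime to `p`, `⁅y, Q⁆ ≤ Z(Q)` implies `y = 1`;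
* `Hs.main_gen` : `y` of order prime to `p` commuting with `1 ≠ e a s`, normalising the subgroup `QF` of the rational
  points of `Q`: `y = 1` or `z ∈ [QF, y]`.
-/

set_option autoImplicit false
set_option linter.unusedSectionVars false

namespace Cfsg.Agent.H579.RG

open CoxeterSystem Cfsg.Agent.ChevalleyStructure.CoxeterGeom Cfsg.Agent.Tits.Roots Cfsg.Agent.Tits.Core
  Cfsg.Agent.Tits.RootComb Cfsg.Agent.Tits.Exchange Cfsg.Agent.Nodes.Reps Cfsg.Agent.Nodes.BNOf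
  Cfsg.Agent.Nodes.StabComb Cfsg.Agent.Nodes.Bruhat Cfsg.Agent.Nodes.OppDec Cfsg.Agent.Nodes.LeviDec
  Cfsg.Agent.Nodes.NormX Cfsg.Agent.Nodes.Coroot Cfsg.Agent.KFacts.RgdPar Cfsg.Agent.KFacts.RgdTI
open scoped commutatorElement

variable {I W Y : Type*} [Fintype I] [DecidableEq I] [Group W] [Group Y] {M : CoxeterMatrix I}
  {cs : CoxeterSystem M W} {A : I → I → ℤ} {h : IsCartan M A} {p : ℕ} {T : Subgroup Y} {n : I → Y}
  {X : (I → ℤ) → Subgroup Y}

/-- the set `J` -/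
def Jn {I : Type*} (j : I) : Set I := {i | i ≠ j}

/-- **The environment.** -/
structure Hs [Finite W] (R : RGD cs h p T n X) {K : Type*} [Field K] (e : (I → ℤ) → K → Y) (a : I → ℤ) (j : I)
    (c : (I → ℤ) → ℤ) : Prop where
  mem : ∀ x, IsRoot cs h x → ∀ g, g ∈ X x ↔ ∃ t, e x t = g
  add : ∀ x, IsRoot cs h x → ∀ s t, e x (s + t) = e x s * e x t
  inj : ∀ x, IsRoot cs h x → Function.Injective (e x)
  lr : LR R a
  lev : ∀ x, cpr cs h x a = x j
  top : ∀ x, IsRoot cs h x → 2 ≤ x j → x = a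
  sub : ∀ x, IsRoot cs h x → x j = 1 → IsRoot cs h (a - x)
  comm0 : ∀ x y, IsRoot cs h x → IsRoot cs h y → x j = 1 → y j = 1 → x + y ≠ a → ∀ s t, e x s * e y t = e y t * e x s
  comm1 : ∀ x, IsRoot cs h x → x j = 1 → ∀ s t, ⁅e x s, e (a - x) t⁆ = e a ((c x : K) * s * t)
  move : ∀ i, i ≠ j → ∃ x, IsRoot cs h x ∧ x j = 1 ∧ (c x : K) ≠ 0 ∧ pairing A i x ≠ 0
  tor : ∀ t ∈ T, (∀ x, IsRoot cs h x → x j = 1 → (c x : K) ≠ 0 → ∀ s, t * e x s = e x s * t) → t = 1
  tora : ∀ t ∈ T, ∀ s, s ≠ 0 → t * e a s = e a s * t → ∀ u, t * e a u = e a u * t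

namespace Hs

variable [Finite W] {R : RGD cs h p T n X} {K : Type*} [Field K] {e : (I → ℤ) → K → Y} {a : I → ℤ} {j : I}
  {c : (I → ℤ) → ℤ} (H : Hs R e a j c)

include H

theorem ra : IsRoot cs h a := H.lr.root

theorem aj : a j = 2 := by
  have h1 := H.lev a
  rw [cpr_self cs h H.ra] at h1
  exact h1.symm

theorem zero {x : I → ℤ} (hx : IsRoot cs h x) : e x 0 = 1 := by
  have := H.add x hx 0 0
  rw [add_zero] at this
  exact left_eq_mul.1 this

theorem neg {x : I → ℤ} (hx : IsRoot cs h x) (t : K) : e x (-t) = (e x t)⁻¹ := by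
  apply eq_inv_of_mul_eq_one_left
  rw [← H.add x hx, neg_add_cancel, H.zero hx]

theorem memX {x : I → ℤ} (hx : IsRoot cs h x) (t : K) : e x t ∈ X x := (H.mem x hx _).2 ⟨t, rfl⟩

/-- the roots of `Q` -/
theorem mem_NotJ {x : I → ℤ} : x ∈ NotJ cs h (Jn j) ↔ IsRoot cs h x ∧ 0 < x j := by
  constructor
  · rintro ⟨h1, h2, k, hk, hk0⟩
    have : k = j := by
      by_contra hne
      exact hk hne
    subst this
    exact ⟨h1, hk0⟩
  · rintro ⟨h1, h2⟩
    refine ⟨h1, ?_, j, fun h3 => h3 rfl, h2⟩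
    rcases h1.pos_or_neg with h3 | h3
    · exact h3
    · have := h3 j
      simp only [Pi.zero_apply] at this
      omega

theorem cases {x : I → ℤ} (hx : x ∈ NotJ cs h (Jn j)) : x = a ∨ (IsRoot cs h x ∧ x j = 1) := by
  rw [H.mem_NotJ] at hx
  by_cases h1 : x j = 1
  · exact Or.inr ⟨hx.1, h1⟩
  · exact Or.inl (H.top x hx.1 (by omega))

theorem a_mem : a ∈ NotJ cs h (Jn j) := by
  rw [H.mem_NotJ]
  exact ⟨H.ra, by rw [H.aj]; norm_num⟩

theorem one_mem' {x : I → ℤ} (hx : IsRoot cs h x) (hj : x j = 1) : x ∈ NotJ cs h (Jn j) := by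
  rw [H.mem_NotJ]
  exact ⟨hx, by omega⟩

theorem sub_mem {x : I → ℤ} (hx : IsRoot cs h x) (hj : x j = 1) : IsRoot cs h (a - x) ∧ (a - x) j = 1 :=
  ⟨H.sub x hx hj, by rw [Pi.sub_apply, H.aj, hj]; norm_num⟩

theorem e_mem_Q {x : I → ℤ} (hx : x ∈ NotJ cs h (Jn j)) (t : K) : e x t ∈ VJ cs h X (Jn j) :=
  RGD.le_Sup hx (H.memX hx.1 t)

/-- `X a` is central in `Q` -/
theorem a_comm {q : Y} (hq : q ∈ VJ cs h X (Jn j)) {z : Y} (hz : z ∈ X a) : q * z = z * q := by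
  refine H.lr.comm' ((RGD.Sup_mono fun x hx => ?_) hq) hz
  rw [H.mem_NotJ] at hx
  exact ⟨hx.1, by rw [H.lev]; omega⟩

theorem a_comm' {q : Y} (hq : q ∈ VJ cs h X (Jn j)) (t : K) : q * e a t = e a t * q :=
  H.a_comm hq (H.memX H.ra t)

/-- commutator as an equation -/
theorem comm_eq {x : I → ℤ} (hx : IsRoot cs h x) (hj : x j = 1) (s t : K) :
    e x s * e (a - x) t = e a ((c x : K) * s * t) * e (a - x) t * e x s := by
  rw [← H.comm1 x hx hj, commutatorElement_def]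
  group

/-- **Linearity.** -/
theorem lin {w : Y} (hw : w ∈ VJ cs h X (Jn j)) {x : I → ℤ} (hx : IsRoot cs h x) (hj : x j = 1) :
    ∃ k : K, ∀ t, w * e x t = e a (k * t) * e x t * w := by
  have key : ∀ {w w' : Y}, w' ∈ VJ cs h X (Jn j) → ∀ {k k' : K}, (∀ t, w * e x t = e a (k * t) * e x t * w) →
      (∀ t, w' * e x t = e a (k' * t) * e x t * w') → w ∈ VJ cs h X (Jn j) →
      (∀ t, w * w' * e x t = e a ((k + k') * t) * e x t * (w * w')) := by
    intro w w' hw' k k' h1 h2 hw t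
    rw [mul_assoc, h2, ← mul_assoc, ← mul_assoc, H.a_comm' hw, mul_assoc (e a _) w, h1, add_mul, H.add a H.ra,
      ← H.add a H.ra, add_comm (k * t), H.add a H.ra]
    group
  have hcl : VJ cs h X (Jn j) = Subgroup.closure {z | ∃ y ∈ NotJ cs h (Jn j), ∃ s, z = e y s} := by
    apply le_antisymm
    · refine RGD.Sup_le fun y hy g hg => ?_
      obtain ⟨t, rfl⟩ := (H.mem y hy.1 g).1 hg
      exact Subgroup.subset_closure ⟨y, hy, t, rfl⟩
    · rw [Subgroup.closure_le]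
      rintro _ ⟨y, hy, s, rfl⟩
      exact H.e_mem_Q hy s
  have hw' := hw
  rw [hcl] at hw'
  induction hw' using Subgroup.closure_induction with
  | mem z hz =>
    obtain ⟨y, hy, s, rfl⟩ := hz
    rcases H.cases hy with rfl | ⟨hy1, hy2⟩
    · refine ⟨0, fun t => ?_⟩
      rw [zero_mul, H.zero hy.1, one_mul]
      exact (H.a_comm' (H.e_mem_Q (H.one_mem' hx hj) t) s).symm
    · by_cases hya : y + x = a
      · have : x = a - y := by rw [← hya]; abel
        subst this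
        refine ⟨(c y : K) * s, fun t => ?_⟩
        rw [H.comm_eq hy1 hy2]
      · refine ⟨0, fun t => ?_⟩
        rw [zero_mul, H.zero H.ra, one_mul]
        exact H.comm0 y x hy1 hx hy2 hj hya s t
  | one => exact ⟨0, fun t => by rw [zero_mul, H.zero H.ra]; group⟩
  | mul u v hu hv ihu ihv =>
    rw [← hcl] at hu hv
    obtain ⟨k, hk⟩ := ihu hu
    obtain ⟨k', hk'⟩ := ihv hv
    exact ⟨k + k', key hv hk hk' hu⟩
  | inv u hu ihu =>
    rw [← hcl] at hu
    obtain ⟨k, hk⟩ := ihu hu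
    refine ⟨-k, fun t => ?_⟩
    have h1 := hk t
    have h2 := H.a_comm' hu (-k * t)
    have h3 : e a (-k * t) * e a (k * t) = 1 := by
      rw [← H.add a H.ra]
      have : -k * t + k * t = 0 := by ring
      rw [this, H.zero H.ra]
    have h4 : e x t = u⁻¹ * (e a (k * t) * e x t * u) := by rw [← h1]; group
    have h5 : u⁻¹ * e a (-k * t) = e a (-k * t) * u⁻¹ := H.a_comm' (inv_mem hu) _
    have h6 : u⁻¹ * e x t * u = e a (-k * t) * e x t := by
      have h7 : u * (e a (-k * t) * e x t) = e x t * u := by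
        rw [← mul_assoc, h2, mul_assoc, h1, ← mul_assoc, ← mul_assoc, h3, one_mul]
      rw [mul_assoc, ← h7]
      group
    rw [← h6]
    group


/-- the centre of `Q` -/
def Zc (cs : CoxeterSystem M W) (h : IsCartan M A) (X : (I → ℤ) → Subgroup Y) (j : I) : Subgroup Y :=
  VJ cs h X (Jn j) ⊓ Subgroup.centralizer (VJ cs h X (Jn j) : Set Y)

omit H in
theorem mem_Zc {z : Y} : z ∈ Zc cs h X j ↔ z ∈ VJ cs h X (Jn j) ∧ ∀ q ∈ VJ cs h X (Jn j), q * z = z * q := by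
  rw [Zc, Subgroup.mem_inf, Subgroup.mem_centralizer_iff]
  rfl

theorem X_le_Zc : X a ≤ Zc cs h X j := fun z hz => mem_Zc.2 ⟨RGD.le_Sup H.a_mem hz, fun _ hq => H.a_comm hq hz⟩

/-- an element of `Q` commuting with the root elements -/
theorem mem_Zc_of {z : Y} (hz : z ∈ VJ cs h X (Jn j)) (hc : ∀ x, IsRoot cs h x → x j = 1 → z * e x 1 = e x 1 * z) :
    z ∈ Zc cs h X j := by
  have h1 : ∀ x ∈ NotJ cs h (Jn j), ∀ t, z * e x t = e x t * z := by
    intro x hx t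
    rcases H.cases hx with rfl | ⟨hx1, hx2⟩
    · exact H.a_comm' hz t
    · obtain ⟨k, hk⟩ := H.lin hz hx1 hx2
      have h2 := hk 1
      rw [hc x hx1 hx2, mul_one, mul_assoc] at h2
      have h3 : e a k = 1 := right_eq_mul.1 h2
      have h4 : k = 0 := H.inj a H.ra (by rw [h3, H.zero H.ra])
      rw [hk, h4, zero_mul, H.zero H.ra, one_mul]
  refine mem_Zc.2 ⟨hz, fun q hq => ?_⟩
  have h2 : VJ cs h X (Jn j) ≤ Subgroup.centralizer {z} := by
    refine RGD.Sup_le fun x hx g hg => ?_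
    obtain ⟨t, rfl⟩ := (H.mem x hx.1 g).1 hg
    rw [Subgroup.mem_centralizer_singleton_iff]
    exact (h1 x hx t).symm
  have h3 := h2 hq
  rwa [Subgroup.mem_centralizer_singleton_iff] at h3

/-- the commutators of `Q` are in `X a` -/
theorem comm_mem {u q : Y} (hu : u ∈ VJ cs h X (Jn j)) (hq : q ∈ VJ cs h X (Jn j)) : ⁅u, q⁆ ∈ X a := by
  have key : VJ cs h X (Jn j) ≤ Subgroup.comap (MulAut.conj u).toMonoidHom ⊤ := fun _ _ => trivial
  have hcl : VJ cs h X (Jn j) = Subgroup.closure {z | ∃ y ∈ NotJ cs h (Jn j), ∃ s, z = e y s} := by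
    apply le_antisymm
    · refine RGD.Sup_le fun y hy g hg => ?_
      obtain ⟨t, rfl⟩ := (H.mem y hy.1 g).1 hg
      exact Subgroup.subset_closure ⟨y, hy, t, rfl⟩
    · rw [Subgroup.closure_le]
      rintro _ ⟨y, hy, s, rfl⟩
      exact H.e_mem_Q hy s
  have hq' := hq
  rw [hcl] at hq'
  induction hq' using Subgroup.closure_induction with
  | mem z hz =>
    obtain ⟨y, hy, s, rfl⟩ := hz
    rcases H.cases hy with rfl | ⟨hy1, hy2⟩
    · rw [commutatorElement_eq_one_iff_mul_comm.2 (H.a_comm' hu s)]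
      exact one_mem _
    · obtain ⟨k, hk⟩ := H.lin hu hy1 hy2
      rw [commutatorElement_def, hk]
      have : e a (k * s) * e y s * u * u⁻¹ * (e y s)⁻¹ = e a (k * s) := by group
      rw [this]
      exact H.memX H.ra _
  | one => rw [commutatorElement_one_right]; exact one_mem _
  | mul v w hv hw ihv ihw =>
    rw [← hcl] at hv hw
    have h1 := H.a_comm hv (ihw hw)
    have h2 : ⁅u, v * w⁆ = ⁅u, v⁆ * (v * ⁅u, w⁆ * v⁻¹) := by
      simp only [commutatorElement_def]; group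
    rw [h2, h1]
    have h3 : ⁅u, w⁆ * v * v⁻¹ = ⁅u, w⁆ := by group
    rw [h3]
    exact mul_mem (ihv hv) (ihw hw)
  | inv v hv ihv =>
    rw [← hcl] at hv
    have h1 := H.a_comm (inv_mem hv) (inv_mem (ihv hv))
    have h2 : ⁅u, v⁻¹⁆ = v⁻¹ * ⁅u, v⁆⁻¹ * v := by
      simp only [commutatorElement_def]; group
    rw [h2, h1]
    have h3 : ⁅u, v⁆⁻¹ * v⁻¹ * v = ⁅u, v⁆⁻¹ := by group
    rw [h3]
    exact inv_mem (ihv hv)

/-- `P_J` normalises the centre of `Q` -/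
theorem conj_Zc {g z : Y} (hg : g ∈ PJ cs h T X (Jn j)) (hz : z ∈ Zc cs h X j) : g * z * g⁻¹ ∈ Zc cs h X j := by
  have hN := PJ_le_normalizer_VJ R (Jn j)
  obtain ⟨h1, h2⟩ := mem_Zc.1 hz
  refine mem_Zc.2 ⟨(Subgroup.mem_normalizer_iff.1 (hN hg) z).1 h1, fun q hq => ?_⟩
  have h3 := h2 _ ((Subgroup.mem_normalizer_iff.1 (hN (inv_mem hg)) q).1 hq)
  rw [inv_inv] at h3
  calc q * (g * z * g⁻¹) = g * (g⁻¹ * q * g * z) * g⁻¹ := by group
    _ = g * (z * (g⁻¹ * q * g)) * g⁻¹ := by rw [h3]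
    _ = g * z * g⁻¹ * q := by group

theorem conj_Q {g q : Y} (hg : g ∈ PJ cs h T X (Jn j)) (hq : q ∈ VJ cs h X (Jn j)) : g * q * g⁻¹ ∈ VJ cs h X (Jn j) :=
  (Subgroup.mem_normalizer_iff.1 (PJ_le_normalizer_VJ R (Jn j) hg) q).1 hq

/-- the series of `B`-invariant subgroups -/
def SS (cs : CoxeterSystem M W) (h : IsCartan M A) (X : (I → ℤ) → Subgroup Y) (j : I) (k : ℤ) : Subgroup Y :=
  RGD.Sup X {x | x ∈ NotJ cs h (Jn j) ∧ k ≤ ht x} ⊔ Zc cs h X j

theorem SS_le {k : ℤ} : SS cs h X j k ≤ VJ cs h X (Jn j) :=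
  sup_le (RGD.Sup_mono fun _ hx => hx.1) fun _ hz => (mem_Zc.1 hz).1

/-- the elements of `SS k` commute with `X (a - x)`, `ht x < k` -/
theorem SS_comm {k : ℤ} {x : I → ℤ} (hx : IsRoot cs h x) (hj : x j = 1) (hk : ht x < k) {s : Y}
    (hs : s ∈ SS cs h X j k) (t : K) : s * e (a - x) t = e (a - x) t * s := by
  obtain ⟨h1, h2⟩ := H.sub_mem hx hj
  have h3 : SS cs h X j k ≤ Subgroup.centralizer {e (a - x) t} := by
    refine sup_le (RGD.Sup_le ?_) ?_
    · rintro y ⟨hy, hky⟩ g hg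
      obtain ⟨u, rfl⟩ := (H.mem y hy.1 g).1 hg
      rw [Subgroup.mem_centralizer_singleton_iff]
      rcases H.cases hy with rfl | ⟨hy1, hy2⟩
      · exact (H.a_comm' (H.e_mem_Q (H.one_mem' h1 h2) t) u).symm
      · refine H.comm0 _ _ hy1 h1 hy2 h2 ?_ _ _
        intro h4
        have : y = x := by
          have h5 : y + (a - x) = a := h4
          calc y = y + (a - x) - (a - x) := by abel
            _ = a - (a - x) := by rw [h5]
            _ = x := by abel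
        rw [this] at hky
        omega
    · intro z hz
      rw [Subgroup.mem_centralizer_singleton_iff]
      exact ((mem_Zc.1 hz).2 _ (H.e_mem_Q (H.one_mem' h1 h2) t)).symm
  have h4 := h3 hs
  rwa [Subgroup.mem_centralizer_singleton_iff] at h4

/-- conjugation into `SS k` -/
theorem SS_conj {k : ℤ} {g : Y} (hg : g ∈ PJ cs h T X (Jn j))
    (h1 : ∀ x ∈ NotJ cs h (Jn j), k ≤ ht x → ∀ t, g * e x t * g⁻¹ ∈ SS cs h X j k) {s : Y} (hs : s ∈ SS cs h X j k) :
    g * s * g⁻¹ ∈ SS cs h X j k := by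
  have h2 : SS cs h X j k ≤ (SS cs h X j k).comap (MulAut.conj g).toMonoidHom := by
    conv_lhs => rw [SS]
    refine sup_le (RGD.Sup_le ?_) ?_
    · rintro y ⟨hy, hky⟩ u hu
      obtain ⟨t, rfl⟩ := (H.mem y hy.1 u).1 hu
      exact h1 y hy hky t
    · intro z hz
      exact Subgroup.mem_sup_right (H.conj_Zc hg hz)
  exact h2 hs

/-- `B` normalises `SS k` -/
theorem B_le (k : ℤ) : RGD.B cs h T X ≤ Subgroup.normalizer (SS cs h X j k : Set Y) := by
  -- one inclusion is enough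
  have key : ∀ {L : Subgroup Y}, L ≤ PJ cs h T X (Jn j) → (∀ g ∈ L, ∀ x ∈ NotJ cs h (Jn j), k ≤ ht x → ∀ t,
      g * e x t * g⁻¹ ∈ SS cs h X j k) → L ≤ Subgroup.normalizer (SS cs h X j k : Set Y) := by
    intro L hL h1 g hg
    rw [Subgroup.mem_normalizer_iff]
    intro s
    refine ⟨fun hs => H.SS_conj (hL hg) (h1 g hg) hs, fun hs => ?_⟩
    have h2 := H.SS_conj (hL (inv_mem hg)) (h1 g⁻¹ (inv_mem hg)) hs
    have e1 : g⁻¹ * (g * s * g⁻¹) * g⁻¹⁻¹ = s := by group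
    rwa [e1] at h2
  refine sup_le (key (le_trans RGD.T_le_B B_le_PJ) ?_) (RGD.Sup_le fun x hx => key
    (le_trans (RGD.X_le_B hx.1 hx.2) B_le_PJ) ?_)
  · intro g hg x hx hk t
    have h1 := R.tor x hx.1 g hg
    have h2 : g * e x t * g⁻¹ ∈ cj g (X x) := conj_mem_cj.2 (H.memX hx.1 t)
    rw [h1] at h2
    exact Subgroup.mem_sup_left (RGD.le_Sup (S := {x | x ∈ NotJ cs h (Jn j) ∧ k ≤ ht x}) ⟨hx, hk⟩ h2)
  · intro g hg y hy hk t
    have e1 : g * e y t * g⁻¹ = ⁅g, e y t⁆ * e y t := by rw [commutatorElement_def]; group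
    rw [e1]
    refine mul_mem ?_ (Subgroup.mem_sup_left (RGD.le_Sup (S := {x | x ∈ NotJ cs h (Jn j) ∧ k ≤ ht x}) ⟨hy, hk⟩
      (H.memX hy.1 t)))
    rcases mem_PosJ_or_NotJ (Jn j) hx.1 hx.2 with h1 | h1
    · rcases H.cases hy with rfl | ⟨hy1, hy2⟩
      · rw [commutatorElement_eq_one_iff_mul_comm.2]
        · exact one_mem _
        · have hjx : x j = 0 := h1.2.2 j fun h3 => h3 rfl
          exact H.lr.comm x hx.1 (by rw [H.lev, hjx]) _ hg _ (H.memX hy.1 t)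
      · have hjx : x j = 0 := h1.2.2 j fun h3 => h3 rfl
        have h2 := R.comm x y hx.1 hy1 (by rintro rfl; omega) (by
          rintro rfl
          rw [Pi.neg_apply] at hjx
          omega) g hg _ (H.memX hy.1 t)
        refine Subgroup.mem_sup_left (R.btw_le_Sup (fun z hz => ?_) h2)
        have hzN := btwn_NotJ (PosJ_subset _ h1) hy hz
        refine ⟨hzN, ?_⟩
        rcases H.cases hzN with rfl | ⟨hz1, hz2⟩
        · -- `z = a` is the highest one
          obtain ⟨h3, h4⟩ := H.sub_mem hy1 hy2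
          have h5 := RGD.ht_pos h3 (H.one_mem' h3 h4).2.1
          have h6 : ht y + ht (z - y) = ht z := by rw [← RGD.ht_add]; congr 1; abel
          omega
        · obtain ⟨-, m, α, β, hm, hα, hβ, he⟩ := hz
          have h3 := congrFun he j
          simp only [Pi.smul_apply, Pi.add_apply, smul_eq_mul, hz2, hy2, hjx, mul_one, mul_zero, zero_add] at h3
          subst h3
          have h4 := congrArg ht he
          rw [RGD.ht_smul, RGD.ht_add, RGD.ht_smul, RGD.ht_smul] at h4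
          have h5 := RGD.ht_pos hx.1 hx.2
          have h6 : 0 < α * ht x := mul_pos hα h5
          have h7 : m * ht y < m * ht z := by linarith
          have h8 := lt_of_mul_lt_mul_left h7 hm.le
          omega
    · have h2 : g ∈ VJ cs h X (Jn j) := RGD.le_Sup h1 hg
      exact Subgroup.mem_sup_right (H.X_le_Zc (H.comm_mem h2 (H.e_mem_Q hy t)))


/-- the elements acting trivially on `Q / Z(Q)` -/
def Kr (cs : CoxeterSystem M W) (h : IsCartan M A) (T : Subgroup Y) (X : (I → ℤ) → Subgroup Y) (j : I) (y : Y) : Prop :=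
  y ∈ PJ cs h T X (Jn j) ∧ ∀ q ∈ VJ cs h X (Jn j), ⁅y, q⁆ ∈ Zc cs h X j

theorem Kr_conj {y k : Y} (hy : Kr cs h T X j y) (hk : k ∈ PJ cs h T X (Jn j)) : Kr cs h T X j (k * y * k⁻¹) := by
  refine ⟨mul_mem (mul_mem hk hy.1) (inv_mem hk), fun q hq => ?_⟩
  have h1 := H.conj_Q (inv_mem hk) hq
  rw [inv_inv] at h1
  have h2 := H.conj_Zc hk (hy.2 _ h1)
  have e1 : k * ⁅y, k⁻¹ * q * k⁆ * k⁻¹ = ⁅k * y * k⁻¹, q⁆ := by simp only [commutatorElement_def]; group
  rwa [e1] at h2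

theorem Kr_Q {u : Y} (hu : u ∈ VJ cs h X (Jn j)) : Kr cs h T X j u :=
  ⟨VJ_le_PJ hu, fun _ hq => H.X_le_Zc (H.comm_mem hu hq)⟩

theorem Kr_mul {y z : Y} (hy : Kr cs h T X j y) (hz : Kr cs h T X j z) : Kr cs h T X j (y * z) := by
  refine ⟨mul_mem hy.1 hz.1, fun q hq => ?_⟩
  have e1 : ⁅y * z, q⁆ = y * ⁅z, q⁆ * y⁻¹ * ⁅y, q⁆ := by simp only [commutatorElement_def]; group
  rw [e1]
  exact mul_mem (H.conj_Zc hy.1 (hz.2 q hq)) (hy.2 q hq)

theorem Kr_inv {y : Y} (hy : Kr cs h T X j y) : Kr cs h T X j y⁻¹ := by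
  refine ⟨inv_mem hy.1, fun q hq => ?_⟩
  have e1 : ⁅y⁻¹, q⁆ = y⁻¹ * (⁅y, q⁆)⁻¹ * y⁻¹⁻¹ := by simp only [commutatorElement_def]; group
  rw [e1]
  exact H.conj_Zc (inv_mem hy.1) (inv_mem (hy.2 q hq))

/-- they normalise the series -/
theorem Kr_norm {y : Y} (hy : Kr cs h T X j y) (k : ℤ) : y ∈ Subgroup.normalizer (SS cs h X j k : Set Y) := by
  have key : ∀ {y : Y}, Kr cs h T X j y → ∀ s ∈ SS cs h X j k, y * s * y⁻¹ ∈ SS cs h X j k := by
    intro y hy s hs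
    have e1 : y * s * y⁻¹ = ⁅y, s⁆ * s := by rw [commutatorElement_def]; group
    rw [e1]
    exact mul_mem (Subgroup.mem_sup_right (hy.2 s (H.SS_le hs))) hs
  rw [Subgroup.mem_normalizer_iff]
  intro s
  refine ⟨fun hs => key hy s hs, fun hs => ?_⟩
  have h2 := key (H.Kr_inv hy) _ hs
  have e1 : y⁻¹ * (y * s * y⁻¹) * y⁻¹⁻¹ = s := by group
  rwa [e1] at h2

/-- an element of `X x` commuting with `X (a - x)` -/
theorem eq_one_of {x : I → ℤ} (hx : IsRoot cs h x) (hj : x j = 1) (hc : (c x : K) ≠ 0) {u : K}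
    (h1 : e x u * e (a - x) 1 = e (a - x) 1 * e x u) : u = 0 := by
  have h2 := H.comm1 x hx hj u 1
  rw [commutatorElement_eq_one_iff_mul_comm.2 h1, ← H.zero H.ra, mul_one] at h2
  have h3 := H.inj a H.ra h2
  rcases mul_eq_zero.1 h3.symm with h4 | h4
  · exact absurd h4 hc
  · exact h4

/-- the Weyl group of `J` fixes `a` -/
theorem rep_simple {i : I} (hi : i ≠ j) : rep cs h (cs.simple i) a = a := by
  rw [H.lr.rep_eq_iff, H.lev, sr_ne hi.symm]

/-- **they are in `B`** -/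
theorem Kr_B {y : Y} (hy : Kr cs h T X j y) : y ∈ RGD.B cs h T X := by
  let P : Subgroup Y := (⨅ k : ℤ, Subgroup.normalizer (SS cs h X j k : Set Y)) ⊓ PJ cs h T X (Jn j)
  have hP : ∀ g, g ∈ P ↔ (∀ k, g ∈ Subgroup.normalizer (SS cs h X j k : Set Y)) ∧ g ∈ PJ cs h T X (Jn j) := by
    intro g
    rw [Subgroup.mem_inf, Subgroup.mem_iInf]
  have hBP : RGD.B cs h T X ≤ P := le_inf (le_iInf fun k => H.B_le k) B_le_PJ
  have h1 := inf_eq_PJ R hBP
  have h2 : {i | n i ∈ P} = ∅ := by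
    rw [Set.eq_empty_iff_forall_notMem]
    intro i hi
    obtain ⟨h3, h4⟩ := (hP _).1 hi
    have hij : i ≠ j := by
      have h5 : Cell R.nsys cs h X (cs.simple i) (n i) := cell_of_rp (rp_simple cs R.nsys i)
      have h6 := (cell_mem_PJ_iff R h5).1 h4
      intro hij
      have h7 : rep cs h (cs.simple i) a = a := by
        have h8 : WJ cs (Jn j) ≤ WJ cs (orth cs h a) := by
          unfold WJ
          refine Subgroup.closure_mono ?_
          rintro _ ⟨k, hk, rfl⟩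
          exact ⟨k, H.rep_simple hk, rfl⟩
        exact rep_of_mem_WJ_orth (h8 h6)
      rw [H.lr.rep_eq_iff, H.lev, hij, sr_self] at h7
      exact one_ne_zero h7
    -- a root which is lowered
    have key : ∀ x, IsRoot cs h x → x j = 1 → (c x : K) ≠ 0 → ht x < ht (rep cs h (cs.simple i) x) → False := by
      intro x hx hj hc hlt
      have hr := rp_simple cs R.nsys i
      -- `n_i` maps `X (s_i x)` onto `X x`
      have hxs : IsRoot cs h (rep cs h (cs.simple i) x) := hx.act _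
      have hjs : rep cs h (cs.simple i) x j = 1 := by
        rw [rep_simple_eq, Pi.sub_apply, Pi.smul_apply, sr_ne hij.symm, smul_zero, sub_zero, hj]
      have h5 : (n i)⁻¹ * e x 1 * n i ∈ X (rep cs h (cs.simple i) x) := by
        have := R.conj_mem' hr hx (H.memX hx 1)
        rwa [inv_simple] at this
      obtain ⟨s, hs⟩ := (H.mem _ hxs _).1 h5
      have h6 : e (rep cs h (cs.simple i) x) s ∈ SS cs h X j (ht (rep cs h (cs.simple i) x)) :=
        Subgroup.mem_sup_left (RGD.le_Sup (S := {z | z ∈ NotJ cs h (Jn j) ∧ ht (rep cs h (cs.simple i) x) ≤ ht z})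
          ⟨H.one_mem' hxs hjs, le_rfl⟩ (H.memX hxs s))
      have h7 := (Subgroup.mem_normalizer_iff.1 (h3 (ht (rep cs h (cs.simple i) x))) _).1 h6
      rw [hs] at h7
      have e1 : n i * ((n i)⁻¹ * e x 1 * n i) * (n i)⁻¹ = e x 1 := by group
      rw [e1] at h7
      exact one_ne_zero (H.eq_one_of hx hj hc (H.SS_comm hx hj hlt h7 1))
    obtain ⟨x, hx, hj, hc, hm⟩ := H.move i hij
    have hht : ht (rep cs h (cs.simple i) x) = ht x - pairing A i x := by
      have h5 : rep cs h (cs.simple i) x + pairing A i x • sr i = x := by rw [rep_simple_eq]; abel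
      have h6 := congrArg ht h5
      rw [RGD.ht_add, RGD.ht_smul] at h6
      have h7 : ht (sr i : I → ℤ) = 1 := by
        unfold ht sr
        simp
      rw [h7] at h6
      omega
    rcases lt_or_gt_of_ne hm with h5 | h5
    · exact key x hx hj hc (by rw [hht]; omega)
    · have hr := rp_simple cs R.nsys i
      have hxs : IsRoot cs h (rep cs h (cs.simple i) x) := hx.act _
      have hjs : rep cs h (cs.simple i) x j = 1 := by
        rw [rep_simple_eq, Pi.sub_apply, Pi.smul_apply, sr_ne hij.symm, smul_zero, sub_zero, hj]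
      have h6 : e x 1 ∈ SS cs h X j (ht x) :=
        Subgroup.mem_sup_left (RGD.le_Sup (S := {z | z ∈ NotJ cs h (Jn j) ∧ ht x ≤ ht z})
          ⟨H.one_mem' hx hj, le_rfl⟩ (H.memX hx 1))
      have h7 := (Subgroup.mem_normalizer_iff.1 (h3 (ht x)) _).1 h6
      have h8 : n i * e (a - x) 1 * (n i)⁻¹ ∈ X (a - rep cs h (cs.simple i) x) := by
        have := R.conj_mem hr (H.sub_mem hx hj).1 (H.memX (H.sub_mem hx hj).1 1)
        rwa [map_sub, H.rep_simple hij] at this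
      obtain ⟨t, ht⟩ := (H.mem _ (H.sub_mem hxs hjs).1 _).1 h8
      have h9 := H.SS_comm hxs hjs (by rw [hht]; omega) h7 t
      rw [ht] at h9
      have h10 : e x 1 * e (a - x) 1 = e (a - x) 1 * e x 1 := by
        calc e x 1 * e (a - x) 1 = (n i)⁻¹ * (n i * e x 1 * (n i)⁻¹ * (n i * e (a - x) 1 * (n i)⁻¹)) * n i := by group
          _ = (n i)⁻¹ * (n i * e (a - x) 1 * (n i)⁻¹ * (n i * e x 1 * (n i)⁻¹)) * n i := by rw [h9]
          _ = e (a - x) 1 * e x 1 := by group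
      exact one_ne_zero (H.eq_one_of hx hj hc h10)
  rw [h2] at h1
  have h3 : y ∈ P ⊓ GG cs h T X := ⟨(hP y).2 ⟨fun k => H.Kr_norm hy k, hy.1⟩, PJ_le_GG hy.1⟩
  rw [h1, mem_PJ_iff_cell R] at h3
  obtain ⟨w, hw, b₁, hb₁, k, hk, b₂, hb₂, rfl⟩ := h3
  have h4 : w = 1 := by
    unfold WJ at hw
    simpa using hw
  subst h4
  exact mul_mem (mul_mem hb₁ (RGD.T_le_B hk.mem_of_one)) hb₂


/-- they are in `T Q` -/
theorem Kr_TQ {y : Y} (hy : Kr cs h T X j y) : ∃ t ∈ T, ∃ u ∈ VJ cs h X (Jn j), y = t * u := by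
  obtain ⟨w, hw⟩ := exists_isLongest cs (Jn j)
  obtain ⟨k, hk⟩ := exists_rp cs R.nsys w
  have hkP : k ∈ PJ cs h T X (Jn j) := LJ_le_PJ (rp_mem_LJ R hw.1 hk)
  obtain ⟨t, ht, u, hu, rfl⟩ := R.mem_B.1 (H.Kr_B hy)
  have h1 := H.Kr_B (H.Kr_conj hy hkP)
  have h2 : k * t * k⁻¹ ∈ T := by
    have h3 : k * t * k⁻¹ ∈ cj k T := conj_mem_cj.2 ht
    rwa [cj_T R hk] at h3
  have h3 : k * u * k⁻¹ ∈ RGD.B cs h T X := by
    have e1 : k * u * k⁻¹ = (k * t * k⁻¹)⁻¹ * (k * (t * u) * k⁻¹) := by group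
    rw [e1]
    exact mul_mem (inv_mem (RGD.T_le_B h2)) h1
  have h4 := mem_PW_of_conj R hk.inv hu (by rw [inv_inv]; exact h3)
  rw [inv_inv] at h4
  refine ⟨t, ht, u, RGD.Sup_mono (fun x hx => ?_) h4, rfl⟩
  obtain ⟨hx1, hx2, hx3⟩ := hx
  rcases mem_PosJ_or_NotJ (Jn j) hx1 hx2 with h5 | h5
  · exfalso
    have h6 := rep_longest_nonpos hw h5
    have h7 : rep cs h w x = 0 := le_antisymm h6 hx3
    exact (hx1.act w).ne_zero h7
  · exact h5

theorem Kr_T {t : Y} (ht : t ∈ T) (hy : Kr cs h T X j t) : t = 1 := by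
  refine H.tor t ht fun x hx hj hc s => ?_
  have h1 := hy.2 _ (H.e_mem_Q (H.one_mem' hx hj) s)
  have h2 : t * e x s * t⁻¹ ∈ X x := by
    have h3 : t * e x s * t⁻¹ ∈ cj t (X x) := conj_mem_cj.2 (H.memX hx s)
    rwa [R.tor x hx t ht] at h3
  have h3 : ⁅t, e x s⁆ ∈ X x := by
    rw [commutatorElement_def]
    exact mul_mem h2 (inv_mem (H.memX hx s))
  obtain ⟨u, hu⟩ := (H.mem x hx _).1 h3
  rw [← hu] at h1
  have h4 := H.eq_one_of hx hj hc ((mem_Zc.1 h1).2 _ (H.e_mem_Q (H.one_mem' (H.sub_mem hx hj).1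
    (H.sub_mem hx hj).2) 1)).symm
  rw [h4, H.zero hx] at hu
  exact commutatorElement_eq_one_iff_mul_comm.1 hu.symm

/-- **A `p'`-element acting trivially on `Q / Z(Q)` is trivial.** -/
theorem final {y : Y} (hy : Kr cs h T X j y) {m : ℕ} (hm : y ^ m = 1) (hmp : m.Coprime p) [Fact p.Prime] : y = 1 := by
  obtain ⟨t, ht, u, hu, rfl⟩ := H.Kr_TQ hy
  have h1 : Kr cs h T X j t := by
    have h2 := H.Kr_mul hy (H.Kr_inv (H.Kr_Q hu))
    rwa [mul_inv_cancel_right] at h2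
  rw [H.Kr_T ht h1, one_mul] at hm ⊢
  obtain ⟨k, hk⟩ := KFacts.RgdCharP.isPGroup_VJ R (Jn j) ⟨u, hu⟩
  have h3 : u ^ p ^ k = 1 := congrArg Subtype.val hk
  exact orderOf_eq_one_iff.1 (Nat.eq_one_of_dvd_coprimes (hmp.pow_right k) (orderOf_dvd_of_pow_eq_one hm)
    (orderOf_dvd_of_pow_eq_one h3))

/-- an element commuting with a nontrivial element of `X a` -/
theorem of_comm (hG : GG cs h T X = ⊤) {y : Y} {s : K} (hs : s ≠ 0) (hy : y * e a s = e a s * y) :
    y ∈ PJ cs h T X (Jn j) ∧ ∀ u, y * e a u = e a u * y := by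
  have hz1 : e a s ≠ 1 := by
    intro h1
    exact hs (H.inj a H.ra (by rw [h1, H.zero H.ra]))
  have hyG : y ∈ GG cs h T X := by rw [hG]; exact Subgroup.mem_top y
  constructor
  · have h1 := H.lr.le_PS_of_comm hyG (H.memX H.ra s) hz1 hy
    have h2 : PS T X (Ge cs h a) = PJ cs h T X {i | ell cs h H.lr.root (sr i) = 0} :=
      PS_half_of_dom (f := ell cs h H.lr.root) fun i => by
        rw [ell_apply, H.lev]
        by_cases hij : i = j
        · rw [hij, sr_self]; norm_num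
        · rw [sr_ne (Ne.symm hij)]
    have h3 : {i | ell cs h H.lr.root (sr i) = 0} = Jn j := by
      ext i
      simp only [Set.mem_setOf_eq, ell_apply, H.lev, Jn]
      constructor
      · rintro h3 rfl
        rw [sr_self] at h3
        exact one_ne_zero h3
      · intro h3
        exact sr_ne (Ne.symm h3)
    rw [h2, h3] at h1
    exact h1
  · obtain ⟨t, ht, htz, q, hq, rfl⟩ := (H.lr.mem_centralizer hyG (H.memX H.ra s) hz1).1 hy
    intro u
    have h1 := H.lr.comm' hq (H.memX H.ra u)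
    rw [mul_assoc, h1, ← mul_assoc, H.tora t ht s hs htz u, mul_assoc]

open Cfsg.Agent.H380.RC in
/-- **The rule.** `QF ≤ Q` normalised by `y`; `h1` : if `d ∈ QF` is not in `Z(QF)`, then the commutators of `d` contain
`z`; `h2` : `C_Q(QF) = Z(Q)`. -/
theorem main_gen (hG : GG cs h T X = ⊤) [Fact p.Prime] {QF : Subgroup Y} (hle : QF ≤ VJ cs h X (Jn j)) {y : Y} {s : K}
    (hs : s ≠ 0) (hy : y * e a s = e a s * y) (hyQ : ∀ q ∈ QF, y * q * y⁻¹ ∈ QF) {m : ℕ} (hm : y ^ m = 1)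
    (hmp : m.Coprime p) {z : Y} (h1 : ∀ d ∈ QF, ∀ q ∈ QF, d * q ≠ q * d → ∃ q ∈ QF, z = d * q * d⁻¹ * q⁻¹)
    (h2 : ∀ w ∈ VJ cs h X (Jn j), (∀ q ∈ QF, w * q = q * w) → w ∈ Zc cs h X j) :
    y = 1 ∨ z ∈ cmm QF y := by
  obtain ⟨hyP, hya⟩ := H.of_comm hG hs hy
  have hD : cmm QF y ≤ QF := by
    rw [cmm, Subgroup.closure_le]
    rintro _ ⟨u, hu, rfl⟩
    have e1 : u * y * u⁻¹ * y⁻¹ = u * (y * u⁻¹ * y⁻¹) := by group
    rw [e1]
    exact mul_mem hu (hyQ _ (inv_mem hu))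
  by_cases hcase : ∃ d ∈ cmm QF y, ∃ q ∈ QF, d * q ≠ q * d
  · right
    obtain ⟨d, hd, q, hq, hne⟩ := hcase
    obtain ⟨q', hq', rfl⟩ := h1 d (hD hd) q hq hne
    have h4 : d * q' * d⁻¹ * q'⁻¹ = (q' * d * q'⁻¹ * d⁻¹)⁻¹ := by group
    rw [h4]
    exact inv_mem (cmm_comm hq' hd)
  · left
    push Not at hcase
    have hDZ : ∀ d ∈ cmm QF y, d ∈ Zc cs h X j := fun d hd => h2 d (hle (hD hd)) (hcase d hd)
    refine H.final (y := y) ⟨hyP, fun q hq => ?_⟩ hm hmp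
    have hq' := H.conj_Q hyP hq
    have e0 : ⁅y, q⁆ = (y * q * y⁻¹) * q⁻¹ := commutatorElement_def _ _
    refine h2 _ (by rw [e0]; exact mul_mem hq' (inv_mem hq)) fun w hw => ?_
    -- `d = [w, y]`
    have hd := hDZ _ (mem_cmm (U := QF) (x := y) hw)
    obtain ⟨hd1, hd2⟩ := mem_Zc.1 hd
    set d := w * y * w⁻¹ * y⁻¹ with hdd
    have h3 : y * w * y⁻¹ = d⁻¹ * w := by rw [hdd]; group
    have hqw := H.comm_mem hq (hle hw)
    obtain ⟨k, hk⟩ := (H.mem a H.ra _).1 hqw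
    -- `[q', w] = [q, w]`
    have h5 : (y * q * y⁻¹) * d = d * (y * q * y⁻¹) := hd2 _ hq'
    have h6 : ⁅y * q * y⁻¹, w⁆ = ⁅q, w⁆ := by
      have h7 : y * ⁅q, w⁆ * y⁻¹ = ⁅q, w⁆ := by
        rw [← hk, hya]; group
      have h8 : y * ⁅q, w⁆ * y⁻¹ = ⁅y * q * y⁻¹, d⁻¹ * w⁆ := by
        rw [← h3]
        simp only [commutatorElement_def]; group
      have h9 : ⁅y * q * y⁻¹, d⁻¹ * w⁆ = ⁅y * q * y⁻¹, w⁆ := by
        have h10 : (y * q * y⁻¹) * d⁻¹ = d⁻¹ * (y * q * y⁻¹) := by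
          calc (y * q * y⁻¹) * d⁻¹ = d⁻¹ * (d * (y * q * y⁻¹)) * d⁻¹ := by group
            _ = d⁻¹ * ((y * q * y⁻¹) * d) * d⁻¹ := by rw [h5]
            _ = _ := by group
        have h11 := H.a_comm (inv_mem hd1) (H.comm_mem hq' (hle hw))
        simp only [commutatorElement_def] at h11 ⊢
        calc (y * q * y⁻¹) * (d⁻¹ * w) * (y * q * y⁻¹)⁻¹ * (d⁻¹ * w)⁻¹
            = ((y * q * y⁻¹) * d⁻¹) * w * (y * q * y⁻¹)⁻¹ * w⁻¹ * d := by group
          _ = (d⁻¹ * ((y * q * y⁻¹) * w * (y * q * y⁻¹)⁻¹ * w⁻¹)) * d := by rw [h10]; group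
          _ = ((y * q * y⁻¹) * w * (y * q * y⁻¹)⁻¹ * w⁻¹) * d⁻¹ * d := by rw [h11]
          _ = _ := by group
      rw [← h9, ← h8, h7]
    have h7 := H.a_comm hq' hqw
    have h8 := H.a_comm hq hqw
    rw [e0]
    have h9 : (y * q * y⁻¹) * w = ⁅q, w⁆ * w * (y * q * y⁻¹) := by
      rw [← h6, commutatorElement_def]; group
    have h10 : q⁻¹ * w = q⁻¹ * ⁅q, w⁆⁻¹ * q * w * q⁻¹ := by
      rw [commutatorElement_def]; group
    have h11 : q⁻¹ * ⁅q, w⁆⁻¹ * q = ⁅q, w⁆⁻¹ := by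
      have h12 := H.a_comm (inv_mem hq) (inv_mem hqw)
      rw [h12]; group
    rw [h11] at h10
    have h12 := H.a_comm hq' (inv_mem hqw)
    calc (y * q * y⁻¹) * q⁻¹ * w = (y * q * y⁻¹) * (q⁻¹ * w) := by group
      _ = ((y * q * y⁻¹) * ⁅q, w⁆⁻¹) * w * q⁻¹ := by rw [h10]; group
      _ = ⁅q, w⁆⁻¹ * ((y * q * y⁻¹) * w) * q⁻¹ := by rw [h12]; group
      _ = w * ((y * q * y⁻¹) * q⁻¹) := by rw [h9]; group

end Hs

end Cfsg.Agent.H579.RG
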