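import Cfsg.Agent.H579.RG.LongTab
import Cfsg.Agent.H351.RG.TwAbs

/-!
# S3509, exceptional groups: the long root rule (helper579), over a locally finite field

`Lv D l j` : the roots of level 1; `Tab.lq` : the relations (`H351.RG.LQ`) over any field;
`Tab.comm_kk` : the elements commuting with `x_a(s) ≠ 1` normalise `Q`;
`Tab.main_kk` : the rule `y = 1 ∨ z ∈ [QF, y]`.
-/

set_option autoImplicit false
set_option linter.unusedSectionVars false

namespace Cfsg.Agent.H579.RG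

open CoxeterSystem Cfsg Cfsg.Lie Cfsg.Lie.ChevalleyDatum
open Cfsg.Agent.ChevalleyStructure Cfsg.Agent.ChevalleyStructure.Elts Cfsg.Agent.ChevalleyStructure.CoxeterGeom
  Cfsg.Agent.ChevalleyStructure.CoxeterGeomTypes Cfsg.Agent.ChevalleyStructure.NPerm
open Cfsg.Agent.Tits.Roots Cfsg.Agent.Tits.Core Cfsg.Agent.Nodes Cfsg.Agent.Nodes.Reps Cfsg.Agent.Nodes.BNOf
  Cfsg.Agent.Nodes.RGDChev Cfsg.Agent.Nodes.Bruhat Cfsg.Agent.Nodes.Coroot Cfsg.Agent.KFacts.RgdTI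
  Cfsg.Agent.Nodes.LeviDec Cfsg.Agent.Nodes.StabComb
open Cfsg.Agent.KFacts.RgdField Cfsg.Agent.KFacts.RgdChevCoord Cfsg.Agent.BpExc.TorCent Cfsg.Agent.BpExc.TorChev
  Cfsg.Agent.BpExc.TowChev Cfsg.Agent.GpExc.Field
open Cfsg.Agent.H225.PPow Cfsg.Agent.KFacts.ChevTwoInst Cfsg.Agent.KFacts.RgdPar Cfsg.Agent.H380.RC
open Cfsg.Agent.ChevalleyStructure.RootVecTab Cfsg.Agent.ChevalleyStructure.RootVec
open scoped commutatorElement

universe u

variable {D : ChevalleyDatum} {l : ℕ} {M : CoxeterMatrix (Fin l)} (hp : IsType D l M) {j th : ℕ}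

/-- the roots of level 1 -/
def Lv (D : ChevalleyDatum) (l j : ℕ) : Set (Fin l → ℤ) := {x | ∃ r, r < D.nroots ∧ rt D r j = 1 ∧ vec D l r = x}

namespace Tab

variable (Tb : Tab D l j th)

include Tb

section anyfield

variable {K : Type u} [Field K]

include hp in
theorem ex_cen {r : ℕ} (hr : r < D.nroots) (h0 : 0 ≤ rt D r j) (s t : K) :
    ex hp r s * ex hp th t = ex hp th t * ex hp r s := by
  have hth := Tb.th_lt
  have := finite_W hp M.toCoxeterSystem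
  by_cases h1 : r = th
  · subst h1
    rw [← ex_add hp, ← ex_add hp, add_comm]
  have h2 : r ≠ D.neg th := by
    rintro rfl
    have h3 : vec D l (D.neg th) Tb.jf = rt D (D.neg th) j := rfl
    rw [← h3, vec_neg hp hth, Pi.neg_apply, Tb.lev_th hp M.toCoxeterSystem] at h0
    omega
  have h3 := List.all_eq_true.1 Tb.lr r (List.mem_range.2 hr)
  rw [Bool.or_eq_true, Bool.or_eq_true, decide_eq_true_eq, beq_iff_eq, beq_iff_eq] at h3
  have h4 : D.commTerms th r = [] := by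
    rcases h3 with (h3 | h3) | h3
    · omega
    · exact absurd h3 h1
    · exact h3
  rw [ex_comm hp hth hr h1 h2, h4, List.map_nil, List.prod_nil, mul_one]

include hp in
theorem ex_comm2 {c : ℕ × ℕ} (hc : c ∈ opL D j) (s t : K) :
    ⁅ex hp c.1 s, ex hp c.2 t⁆ = ex hp th (-(kf D c : K) * s * t) := by
  obtain ⟨h1, h2, h3, h4, h5, -⟩ := Tb.op_spec hc
  obtain ⟨h6, h7⟩ := Tb.mem_L1_of hc
  have h8 := ex_comm hp (K := K) h2 h1 h4 (Tb.ne_neg hp h2 (mem_L1.1 h7).2 (mem_L1.1 h6).2) t s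
  rw [h5] at h8
  simp only [List.map_cons, List.map_nil, List.prod_cons, List.prod_nil, mul_one, pow_one] at h8
  have h9 := Tb.ex_cen hp h1 (by rw [(mem_L1.1 h6).2]; norm_num) s ((kf D c : K) * -t * s)
  have h10 := Tb.ex_cen hp h2 (by rw [(mem_L1.1 h7).2]; norm_num) t ((kf D c : K) * -t * s)
  rw [commutatorElement_def, h8, mul_assoc (ex hp c.2 t), h9]
  have e : (kf D c : K) * -t * s = -(kf D c : K) * s * t := by ring
  rw [e] at h10 ⊢
  rw [← mul_assoc, h10]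
  group

/-- **The relations of `Q`.** -/
theorem lq : H351.RG.LQ (xc (K := K) hp) (vec D l th) (Lv D l j) (fun x => (cx D l th x : K)) := by
  have hth := Tb.th_lt
  have hx' : ∀ x, x = vec D l th ∨ x ∈ Lv D l j → ∃ r, r < D.nroots ∧ 0 ≤ rt D r j ∧ vec D l r = x := by
    rintro x (rfl | ⟨r, hr, h1, rfl⟩)
    · have := finite_W hp M.toCoxeterSystem
      refine ⟨th, hth, ?_, rfl⟩
      have h3 : vec D l th Tb.jf = rt D th j := rfl
      rw [← h3, Tb.lev_th hp M.toCoxeterSystem]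
      norm_num
    · exact ⟨r, hr, by rw [h1]; norm_num, rfl⟩
  constructor
  · intro x hx s t
    obtain ⟨r, hr, -, rfl⟩ := hx' x hx
    rw [xc_vec hp hr, xc_vec hp hr, xc_vec hp hr, ex_add]
  · intro x hx
    obtain ⟨r, hr, -, rfl⟩ := hx' x hx
    exact xc_inj hp hr
  · intro x hx s t
    obtain ⟨r, hr, h0, rfl⟩ := hx' x hx
    rw [xc_vec hp hr, xc_vec hp hth]
    exact Tb.ex_cen hp hr h0 s t
  · rintro x ⟨r, hr, h1, rfl⟩
    obtain ⟨s, hs⟩ := Tb.pair hr h1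
    obtain ⟨-, h5, h6, -⟩ := Tb.op_spec hs
    refine ⟨s, h5, (mem_L1.1 (Tb.mem_L1_of hs).2).2, ?_⟩
    rw [← h6, add_sub_cancel_left]
  · rintro x ⟨r, hr, h1, rfl⟩ y ⟨r', hr', h2, rfl⟩ h3 s t
    rw [xc_vec hp hr, xc_vec hp hr']
    exact Tb.ex_comm0 hp hr hr' h1 h2 h3 s t
  · rintro x ⟨r, hr, h1, rfl⟩ s t
    obtain ⟨r', hc⟩ := Tb.pair hr h1
    obtain ⟨-, h5, h6, -⟩ := Tb.op_spec hc
    rw [← h6, add_sub_cancel_left, xc_vec hp hr, xc_vec hp h5, h6, xc_vec hp Tb.th_lt]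
    have h7 := Tb.ex_comm2 hp (K := K) hc s t
    have h8 := Tb.cx_eq hp hc
    simp only at h7 h8
    rw [h7, h8, Int.cast_neg]

end anyfield

/-! ### levels -/

section levels

variable {k : Type u} [Field k] (hk : LocFin k) (r : ℕ) [Fact r.Prime] [CharP k r]

/-- the group `Q` -/
noncomputable abbrev QQ (hp : IsType D l M) (k : Type u) [Field k] (j th : ℕ) : Subgroup ↥(D.group k) :=
  H351.RG.QK (xc (K := k) hp) (vec D l th) (Lv D l j)

/-- `Q` of level `E` -/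
abbrev VE (hp : IsType D l M) (Tb : Tab D l j th) (E : Lev k) : Subgroup ↥(D.group ↥E.1) :=
  VJ M.toCoxeterSystem hp.isCartan (XX D l ↥E.1) (Jn Tb.jf)

theorem mem_NotJ {x : Fin l → ℤ} (hx : x ∈ NotJ M.toCoxeterSystem hp.isCartan (Jn Tb.jf)) :
    x = vec D l th ∨ x ∈ Lv D l j := by
  obtain ⟨h1, h2, i, hi, hi0⟩ := hx
  have : i = Tb.jf := by
    by_contra hne
    exact hi hne
  subst this
  obtain ⟨r, hr, rfl⟩ := (isRoot_iff hp _ _).1 h1
  by_cases h3 : vec D l r Tb.jf = 1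
  · exact Or.inr ⟨r, hr, h3, rfl⟩
  · left
    rw [Tb.top' hr (by omega)]

theorem NotJ_of {x : Fin l → ℤ} (hx : x = vec D l th ∨ x ∈ Lv D l j) :
    x ∈ NotJ M.toCoxeterSystem hp.isCartan (Jn Tb.jf) := by
  have := finite_W hp M.toCoxeterSystem
  have h1 : IsRoot M.toCoxeterSystem hp.isCartan x ∧ 0 < x Tb.jf := by
    rcases hx with rfl | ⟨r, hr, h1, rfl⟩
    · exact ⟨isRoot_vec hp _ Tb.th_lt, by rw [Tb.lev_th hp M.toCoxeterSystem]; norm_num⟩
    · refine ⟨isRoot_vec hp _ hr, ?_⟩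
      have h2 : vec D l r Tb.jf = rt D r j := rfl
      rw [h2, h1]; norm_num
  refine ⟨h1.1, ?_, Tb.jf, fun h3 => h3 rfl, h1.2⟩
  rcases h1.1.pos_or_neg with h3 | h3
  · exact h3
  · have := h3 Tb.jf
    simp only [Pi.zero_apply] at this
    omega

theorem map_VE_le (E : Lev k) : (VE hp Tb E).map (emb hp.inList E.1.subtype) ≤ QQ hp k j th := by
  rw [Subgroup.map_le_iff_le_comap]
  refine RGD.Sup_le fun x hx g hg => ?_
  have hxL := Tb.mem_NotJ hp hx
  obtain ⟨r, hr, rfl⟩ := (isRoot_iff hp M.toCoxeterSystem x).1 hx.1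
  obtain ⟨t, rfl⟩ := (mem_XX_vec hp hr).1 hg
  rw [Subgroup.mem_comap, ← xc_vec hp hr, emb_xc]
  exact H351.RG.e_mem hxL _

include hk in
theorem exists_VE {q : ↥(D.group k)} (hq : q ∈ QQ hp k j th) : ∃ E : Lev k, ∀ E' : Lev k, E ≤ E' →
    ∃ q' ∈ VE hp Tb E', emb hp.inList E'.1.subtype q' = q := by
  induction hq using Subgroup.closure_induction with
  | mem z hz =>
    obtain ⟨x, hx, t, rfl⟩ := hz
    obtain ⟨E, hE⟩ := exists_mem_lev hk t
    refine ⟨E, fun E' hE' => ?_⟩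
    have hxN := Tb.NotJ_of hp hx
    obtain ⟨r, hr, rfl⟩ := (isRoot_iff hp M.toCoxeterSystem x).1 hxN.1
    refine ⟨xc hp (vec D l r) (⟨t, hE' hE⟩ : ↥E'.1), RGD.le_Sup hxN ?_, ?_⟩
    · rw [mem_XX_vec hp hr]
      exact ⟨_, (xc_vec hp hr _).symm⟩
    · rw [emb_xc]
      rfl
  | one =>
    obtain ⟨E⟩ := nonempty_lev hk
    exact ⟨E, fun _ _ => ⟨1, one_mem _, map_one _⟩⟩
  | mul a b _ _ iha ihb =>
    obtain ⟨E, hE⟩ := iha
    obtain ⟨E', hE'⟩ := ihb
    obtain ⟨E'', h1, h2⟩ := dir_lev hk E E'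
    refine ⟨E'', fun E₀ h0 => ?_⟩
    obtain ⟨a', ha', rfl⟩ := hE E₀ (h1.trans h0)
    obtain ⟨b', hb', rfl⟩ := hE' E₀ (h2.trans h0)
    exact ⟨a' * b', mul_mem ha' hb', map_mul _ _ _⟩
  | inv a _ iha =>
    obtain ⟨E, hE⟩ := iha
    refine ⟨E, fun E₀ h0 => ?_⟩
    obtain ⟨a', ha', rfl⟩ := hE E₀ h0
    exact ⟨a'⁻¹, inv_mem ha', map_inv _ _⟩

include hk in
theorem exists_VE_finite {S : Set ↥(D.group k)} (hS : S.Finite) (hq : S ⊆ QQ hp k j th) : ∃ E : Lev k, ∀ E' : Lev k,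
    E ≤ E' → ∀ q ∈ S, ∃ q' ∈ VE hp Tb E', emb hp.inList E'.1.subtype q' = q := by
  induction S, hS using Set.Finite.induction_on with
  | empty =>
    obtain ⟨E⟩ := nonempty_lev hk
    exact ⟨E, fun _ _ q hq => absurd hq (Set.notMem_empty q)⟩
  | @insert a S _ _ ih =>
    rw [Set.insert_subset_iff] at hq
    obtain ⟨E, hE⟩ := ih hq.2
    obtain ⟨E', hE'⟩ := Tb.exists_VE hp hk hq.1
    obtain ⟨E'', h1, h2⟩ := dir_lev hk E E'
    refine ⟨E'', fun E₀ h0 q hq => ?_⟩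
    rcases Set.mem_insert_iff.1 hq with rfl | hq
    · exact hE' E₀ (h2.trans h0)
    · exact hE E₀ (h1.trans h0) q hq

include hk r in
/-- **The centraliser of a long root element normalises `Q` and centralises the root group.** -/
theorem comm_kk {y : ↥(D.group k)} {s : k} (hs : s ≠ 0)
    (hy : y * xc hp (vec D l th) s = xc hp (vec D l th) s * y) :
    (∀ q ∈ QQ hp k j th, y * q * y⁻¹ ∈ QQ hp k j th) ∧ ∀ u, y * xc hp (vec D l th) u = xc hp (vec D l th) u * y := by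
  have := finite_W hp M.toCoxeterSystem
  obtain ⟨E1, hE1⟩ := exists_level hp hk y
  constructor
  · intro q hq
    obtain ⟨E2, hE2⟩ := Tb.exists_VE hp hk hq
    obtain ⟨E3, hE3⟩ := exists_mem_lev hk s
    obtain ⟨E4, h14, h24⟩ := dir_lev hk E1 E2
    obtain ⟨E, h3E, h4E⟩ := dir_lev hk E3 E4
    obtain ⟨y', rfl⟩ := hE1 E (h14.trans h4E)
    obtain ⟨q', hq', rfl⟩ := hE2 E (h24.trans h4E)
    have := charP_lev r E.1
    have H := Tb.hs hp M.toCoxeterSystem (K := ↥E.1) r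
    have h1 : y' * xc hp (vec D l th) (⟨s, h3E hE3⟩ : ↥E.1) = xc hp (vec D l th) (⟨s, h3E hE3⟩ : ↥E.1) * y' := by
      apply emb_injective hp.inList E.1.subtype
      rw [map_mul, map_mul, emb_xc]
      exact hy
    obtain ⟨h2, -⟩ := H.of_comm (GG_top hp _) (s := ⟨s, h3E hE3⟩) (fun h => hs (congrArg Subtype.val h)) h1
    have h3 := H.conj_Q h2 hq'
    have h4 := Tb.map_VE_le hp E (Subgroup.mem_map_of_mem _ h3)
    rwa [map_mul, map_mul, map_inv] at h4
  · intro u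
    obtain ⟨E2, hE2⟩ := exists_mem_lev hk u
    obtain ⟨E3, hE3⟩ := exists_mem_lev hk s
    obtain ⟨E4, h14, h24⟩ := dir_lev hk E1 E2
    obtain ⟨E, h3E, h4E⟩ := dir_lev hk E3 E4
    obtain ⟨y', rfl⟩ := hE1 E (h14.trans h4E)
    have := charP_lev r E.1
    have H := Tb.hs hp M.toCoxeterSystem (K := ↥E.1) r
    have h1 : y' * xc hp (vec D l th) (⟨s, h3E hE3⟩ : ↥E.1) = xc hp (vec D l th) (⟨s, h3E hE3⟩ : ↥E.1) * y' := by
      apply emb_injective hp.inList E.1.subtype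
      rw [map_mul, map_mul, emb_xc]
      exact hy
    obtain ⟨-, h2⟩ := H.of_comm (GG_top hp _) (s := ⟨s, h3E hE3⟩) (fun h => hs (congrArg Subtype.val h)) h1
    have h3 := congrArg (emb hp.inList E.1.subtype) (h2 ⟨u, (h24.trans h4E) hE2⟩)
    rw [map_mul, map_mul, emb_xc] at h3
    exact h3

include hk r in
/-- **The rule.** -/
theorem main_kk {QF : Subgroup ↥(D.group k)} (hle : QF ≤ QQ hp k j th) (hfin : (QF : Set ↥(D.group k)).Finite)
    {y : ↥(D.group k)} {s : k} (hs : s ≠ 0) (hy : y * xc hp (vec D l th) s = xc hp (vec D l th) s * y)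
    (hyQ : ∀ q ∈ QF, y * q * y⁻¹ ∈ QF) {m : ℕ} (hm : y ^ m = 1) (hmp : m.Coprime r)
    (h1 : ∀ d ∈ QF, ∀ q ∈ QF, d * q ≠ q * d → ∃ q ∈ QF, xc hp (vec D l th) s = d * q * d⁻¹ * q⁻¹)
    (h2 : ∀ w ∈ QQ hp k j th, (∀ q ∈ QF, w * q = q * w) → ∀ q ∈ QQ hp k j th, w * q = q * w) :
    y = 1 ∨ xc hp (vec D l th) s ∈ cmm QF y := by
  have := finite_W hp M.toCoxeterSystem
  obtain ⟨E1, hE1⟩ := exists_level hp hk y
  obtain ⟨E2, hE2⟩ := Tb.exists_VE_finite hp hk hfin hle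
  obtain ⟨E3, hE3⟩ := exists_mem_lev hk s
  obtain ⟨E4, h14, h24⟩ := dir_lev hk E1 E2
  obtain ⟨E, h3E, h4E⟩ := dir_lev hk E3 E4
  obtain ⟨y', rfl⟩ := hE1 E (h14.trans h4E)
  have hQ := hE2 E (h24.trans h4E)
  have := charP_lev r E.1
  have H := Tb.hs hp M.toCoxeterSystem (K := ↥E.1) r
  have hinj := emb_injective hp.inList E.1.subtype
  set s' : ↥E.1 := ⟨s, h3E hE3⟩ with hs'
  have hes : emb hp.inList E.1.subtype (xc hp (vec D l th) s') = xc hp (vec D l th) s := by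
    rw [emb_xc]; rfl
  have hy1 : y' * xc hp (vec D l th) s' = xc hp (vec D l th) s' * y' := by
    apply hinj
    rw [map_mul, map_mul, hes]
    exact hy
  have hle' : QF.comap (emb hp.inList E.1.subtype) ≤ VJ M.toCoxeterSystem hp.isCartan (XX D l ↥E.1) (Jn Tb.jf) := by
    intro q hq
    obtain ⟨q', hq', h3⟩ := hQ _ hq
    rw [← hinj h3]
    exact hq'
  rcases H.main_gen (GG_top hp _) hle' (s := s') (fun h => hs (congrArg Subtype.val h)) hy1
    (fun q hq => by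
      rw [Subgroup.mem_comap, map_mul, map_mul, map_inv]
      exact hyQ _ hq) (m := m) (by
        apply hinj
        rw [map_pow, hm, map_one]) hmp (z := xc hp (vec D l th) s') (fun d hd q hq hne => by
        obtain ⟨u, hu, h3⟩ := h1 _ hd _ hq (by
          rw [← map_mul, ← map_mul]
          exact fun h => hne (hinj h))
        obtain ⟨u', -, rfl⟩ := hQ u hu
        refine ⟨u', hu, hinj ?_⟩
        rw [hes, h3]
        simp only [map_mul, map_inv]) (fun w hw hc => by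
        refine Hs.mem_Zc.2 ⟨hw, fun q hq => ?_⟩
        have h3 := h2 _ (Tb.map_VE_le hp E (Subgroup.mem_map_of_mem _ hw)) (fun q hq => by
          obtain ⟨q', hq', rfl⟩ := hQ q hq
          rw [← map_mul, ← map_mul, hc q' hq]) _ (Tb.map_VE_le hp E (Subgroup.mem_map_of_mem _ hq))
        apply hinj
        rw [map_mul, map_mul]
        exact h3.symm) with h3 | h3
  · left
    rw [h3, map_one]
  · right
    have h4 : cmm (QF.comap (emb hp.inList E.1.subtype)) y' ≤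
        (cmm QF (emb hp.inList E.1.subtype y')).comap (emb hp.inList E.1.subtype) := by
      conv_lhs => rw [cmm]
      rw [Subgroup.closure_le]
      rintro _ ⟨u, hu, rfl⟩
      rw [SetLike.mem_coe, Subgroup.mem_comap, map_mul, map_mul, map_mul, map_inv, map_inv]
      exact mem_cmm hu
    have h5 := h4 h3
    rw [Subgroup.mem_comap, hes] at h5
    exact h5

end levels

end Tab

end Cfsg.Agent.H579.RG
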