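import Cfsg.Agent.H579.RG.LongKK
import Cfsg.Agent.H351.RG.TwM
import Cfsg.Agent.H368.RG.Engine

/-!
# S3509, exceptional groups: `LRData` for the long root elements (helper579)

`m : MData hp r q K₀`, `Tb : Tab D l j th`, `th` the highest root.

* `Vm m v` : long root elements of `Y^σ`; `Um Tb m v` : the conjugate of `Q ⊓ Y^σ`;
* `lrData : LRData (fixedSubgroup m.σ) r (Vm m) (Um Tb m)`;
* `pmem` : `r`-elements of `Y^σ` lie in `m.ι.range`; `vmem`, `ule`;
* `LRData.mono`.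
-/

set_option autoImplicit false
set_option linter.unusedSectionVars false

namespace Cfsg.Agent.H579.RG

open CoxeterSystem Cfsg Cfsg.Lie Cfsg.Lie.ChevalleyDatum
open Cfsg.Agent.ChevalleyStructure Cfsg.Agent.ChevalleyStructure.Elts Cfsg.Agent.ChevalleyStructure.CoxeterGeom
  Cfsg.Agent.ChevalleyStructure.CoxeterGeomTypes Cfsg.Agent.ChevalleyStructure.NPerm
open Cfsg.Agent.Tits.Roots Cfsg.Agent.Tits.Core Cfsg.Agent.Nodes Cfsg.Agent.Nodes.Reps Cfsg.Agent.Nodes.BNOf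
  Cfsg.Agent.Nodes.RGDChev Cfsg.Agent.Nodes.LeviDec
open Cfsg.Agent.KFacts.RgdField Cfsg.Agent.KFacts.RgdChevCoord
  Cfsg.Agent.BpExc.TowChev Cfsg.Agent.GpExc.Field Cfsg.Agent.BpExc
open Cfsg.Agent.ChevalleyStructure.RootVecTab Cfsg.Agent.ChevalleyStructure.RootVec
open Cfsg.Agent.H469.Exc Cfsg.Agent.H469.Exc.SigFr Cfsg.Agent.H316.U6 Cfsg.Agent.H368.RG Cfsg.Agent.H380.RC
open scoped commutatorElement

universe u v

variable {D : ChevalleyDatum} {l : ℕ} {M : CoxeterMatrix (Fin l)} {hp : IsType D l M} {j th : ℕ}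

theorem LRmono {G : Type*} [Group G] {I : Subgroup G} {p : ℕ} {V V' : G → Prop} {U : G → Subgroup G}
    (h : LRData I p V U) (hV : ∀ v, V' v → V v) : LRData I p V' U :=
  ⟨fun v hv => h.ne v (hV v hv), fun v hv => h.comm v (hV v hv), fun v hv => h.nil v (hV v hv),
    fun v hv => h.card v (hV v hv), fun v hv => h.norm v (hV v hv), fun v hv => h.mem v (hV v hv)⟩

theorem LR_eq (Tb : Tab D l j th) (hp : IsType D l M) (hth : th = D.nroots - 1) : H351.RG.LR D l = Lv D l j := by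
  have := finite_W hp M.toCoxeterSystem
  have h2 : vec D l th Tb.jf = 2 := Tb.lev_th hp M.toCoxeterSystem
  ext x
  constructor
  · rintro ⟨⟨s, hs, rfl⟩, s', hs', h1⟩
    rw [← hth] at h1
    refine ⟨s, hs, ?_, rfl⟩
    have h3 := congrFun h1 Tb.jf
    rw [Pi.sub_apply, h2] at h3
    have h4 : vec D l s Tb.jf < 2 := by
      by_contra hcon
      have h5 := Tb.top' hs (by omega)
      rw [h5, sub_self] at h1
      exact (isRoot_vec hp M.toCoxeterSystem hs').ne_zero h1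
    have h5 : vec D l s' Tb.jf < 2 := by
      by_contra hcon
      have h6 := Tb.top' hs' (by omega)
      rw [h6] at h1
      have h7 : vec D l s = 0 := by
        have h8 : vec D l th + vec D l s = vec D l th := by rw [eq_sub_iff_add_eq] at h1; exact h1
        exact add_eq_left.1 h8
      exact (isRoot_vec hp M.toCoxeterSystem hs).ne_zero h7
    have h6 : rt D s j = vec D l s Tb.jf := rfl
    omega
  · rintro ⟨s, hs, h1, rfl⟩
    obtain ⟨s', hc⟩ := Tb.pair hs h1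
    obtain ⟨-, h5, h6, -⟩ := Tb.op_spec hc
    exact ⟨⟨s, hs, rfl⟩, s', h5, by rw [← hth, ← h6, add_sub_cancel_left]⟩

variable {r q : ℕ} [hr : Fact r.Prime] {K₀ : Type v} [Group K₀] (m : MData hp r q K₀)

theorem odd_of (Tb : Tab D l j th) (hp : IsType D l M) (hth : th = D.nroots - 1)
    (hodd : Odd (∑ i ∈ Finset.range l, rt D th i)) : Odd (∑ i, vec D l (D.nroots - 1) i) := by
  rw [← hth]
  have h1 : ∑ i, vec D l th i = ∑ i ∈ Finset.range l, rt D th i := by
    rw [Finset.sum_range]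
    rfl
  rwa [h1]

/-- `σ` on `Q` -/
theorem sgL (Tb : Tab D l j th) (hth : th = D.nroots - 1) (hodd : Odd (∑ i ∈ Finset.range l, rt D th i)) :
    H351.RG.Sg (xc (K := KK r) hp) (vec D l th) (Lv D l j) m.σ q (fun v => m.g v) := by
  have h1 := H351.RG.sg m (by have := Tb.th_lt; omega) (odd_of Tb hp hth hodd)
  rw [LR_eq Tb hp hth, ← hth] at h1
  exact h1

/-- long root elements -/
def Vm (m : MData hp r q K₀) (v : ↥(D.group (KK r))) : Prop :=
  v ≠ 1 ∧ ∃ y, m.σ y = y ∧ ∃ t, m.σ (xc hp (vec D l (D.nroots - 1)) t) = xc hp (vec D l (D.nroots - 1)) t ∧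
    v = y * xc hp (vec D l (D.nroots - 1)) t * y⁻¹

/-- the rational points of `Q` -/
noncomputable def QF (m : MData hp r q K₀) (j th : ℕ) : Subgroup ↥(D.group (KK r)) :=
  Tab.QQ hp (KK r) j th ⊓ fixedSubgroup m.σ

open Classical in
/-- the group of a long root element -/
noncomputable def Um (m : MData hp r q K₀) (j th : ℕ) (v : ↥(D.group (KK r))) : Subgroup ↥(D.group (KK r)) :=
  if h : Vm m v then (QF m j th).map (MulAut.conj h.2.choose).toMonoidHom else ⊥

theorem mem_QF {y : ↥(D.group (KK r))} : y ∈ QF m j th ↔ y ∈ Tab.QQ hp (KK r) j th ∧ m.σ y = y := Iff.rfl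

theorem mem_Um {v : ↥(D.group (KK r))} (h : Vm m v) {u : ↥(D.group (KK r))} :
    u ∈ Um m j th v ↔ h.2.choose⁻¹ * u * h.2.choose ∈ QF m j th := by
  unfold Um
  rw [dif_pos h]
  constructor
  · rintro ⟨z, hz, rfl⟩
    change h.2.choose⁻¹ * (h.2.choose * z * h.2.choose⁻¹) * h.2.choose ∈ _
    have e : h.2.choose⁻¹ * (h.2.choose * z * h.2.choose⁻¹) * h.2.choose = z := by group
    rwa [e]
  · intro h1
    refine ⟨_, h1, ?_⟩
    change h.2.choose * (h.2.choose⁻¹ * u * h.2.choose) * h.2.choose⁻¹ = u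
    group

theorem pow_of_QQ (Tb : Tab D l j th) {y : ↥(D.group (KK r))} (hy : y ∈ Tab.QQ hp (KK r) j th) : ∃ k, y ^ r ^ k = 1 := by
  have := finite_W hp M.toCoxeterSystem
  obtain ⟨E, hE⟩ := Tb.exists_VE hp (locFin r) hy
  obtain ⟨y', hy', rfl⟩ := hE E le_rfl
  have := charP_lev r E.1
  obtain ⟨k, hk⟩ := KFacts.RgdCharP.isPGroup_VJ (rgd (K := ↥E.1) hp M.toCoxeterSystem r) (Jn Tb.jf) ⟨y', hy'⟩
  refine ⟨k, ?_⟩
  have h3 : y' ^ r ^ k = 1 := congrArg Subtype.val hk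
  rw [← map_pow, h3, map_one]

/-- **`r`-elements of `Y^σ` lie in the group** -/
theorem pmem {y : ↥(D.group (KK r))} (hy : m.σ y = y) {k : ℕ} (hk : y ^ r ^ k = 1) : y ∈ m.ι.range := by
  obtain ⟨n, hn, h1⟩ := m.idx y hy
  have h2 : n.Coprime (orderOf y) :=
    Nat.Coprime.coprime_dvd_right (orderOf_dvd_of_pow_eq_one hk) (hn.pow_right k)
  obtain ⟨a, ha⟩ := exists_pow_eq_self_of_coprime h2
  rw [← ha]
  exact pow_mem h1 a

theorem card_QF (Tb : Tab D l j th) : IsPGroup r (QF m j th) := by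
  rintro ⟨y, hy⟩
  obtain ⟨k, hk⟩ := pow_of_QQ Tb hy.1
  exact ⟨k, Subtype.ext hk⟩

theorem finite_QF : ((QF m j th : Subgroup ↥(D.group (KK r))) : Set ↥(D.group (KK r))).Finite := by
  have := m.fin
  have h1 : ((fixedSubgroup m.σ : Subgroup ↥(D.group (KK r))) : Set ↥(D.group (KK r))).Finite :=
    Set.toFinite _
  exact h1.subset fun x hx => hx.2

theorem pgroup_Um (Tb : Tab D l j th) (v : ↥(D.group (KK r))) : IsPGroup r (Um m j th v) := by
  by_cases h : Vm m v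
  · have h1 : Um m j th v = (QF m j th).map (MulAut.conj h.2.choose).toMonoidHom := dif_pos h
    rw [h1]
    exact (card_QF m Tb).map _
  · have h1 : Um m j th v = ⊥ := dif_neg h
    rw [h1]
    exact IsPGroup.of_bot

theorem finite_Um (v : ↥(D.group (KK r))) : Finite (Um m j th v) := by
  by_cases h : Vm m v
  · have h1 : Um m j th v = (QF m j th).map (MulAut.conj h.2.choose).toMonoidHom := dif_pos h
    rw [h1]
    exact ((finite_QF m).image _).to_subtype
  · have h1 : Um m j th v = ⊥ := dif_neg h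
    rw [h1]
    infer_instance

/-- **`LRData` for the long root elements.** -/
theorem lrData (Tb : Tab D l j th) (hth : th = D.nroots - 1) (hodd : Odd (∑ i ∈ Finset.range l, rt D th i)) :
    LRData (fixedSubgroup m.σ) r (Vm m) (Um m j th) := by
  subst hth
  have H := Tb.lq (K := KK r) hp
  have S := sgL m Tb rfl hodd
  have hsp : ∀ v (h : Vm m v), m.σ h.2.choose = h.2.choose ∧ ∃ t, t ≠ 0 ∧
      m.σ (xc hp (vec D l (D.nroots - 1)) t) = xc hp (vec D l (D.nroots - 1)) t ∧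
      h.2.choose⁻¹ * v * h.2.choose = xc hp (vec D l (D.nroots - 1)) t := by
    intro v h
    obtain ⟨h1, t, h2, h3⟩ := h.2.choose_spec
    have h4 : h.2.choose⁻¹ * v * h.2.choose = xc hp (vec D l (D.nroots - 1)) t := by
      generalize h.2.choose = g at h3 ⊢
      rw [h3]
      group
    refine ⟨h1, t, ?_, h2, h4⟩
    rintro rfl
    apply h.1
    rw [H.zero (Or.inl rfl)] at h3
    rw [h3]
    group
  refine ⟨fun v hv => hv.1, ?_, ?_, ?_, ?_, ?_⟩
  · intro v hv u hu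
    rw [mem_Um m hv] at hu
    obtain ⟨h1, t, ht, h2, h3⟩ := hsp v hv
    have h4 := H.a_comm hu.1 t
    rw [← h3] at h4
    set g := hv.2.choose
    have e1 : g⁻¹ * u * g * (g⁻¹ * v * g) = g⁻¹ * (u * v) * g := by group
    have e2 : g⁻¹ * v * g * (g⁻¹ * u * g) = g⁻¹ * (v * u) * g := by group
    rw [e1, e2] at h4
    exact mul_left_cancel (mul_right_cancel h4)
  · intro v hv
    have := finite_Um m (j := j) (th := D.nroots - 1) v
    exact (pgroup_Um m Tb v).isNilpotent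
  · intro v hv s hs hsr
    have := finite_Um m (j := j) (th := D.nroots - 1) v
    obtain ⟨n, hn⟩ := IsPGroup.iff_card.1 (pgroup_Um m Tb v)
    rw [hn]
    exact Nat.Coprime.pow_right n ((Nat.coprime_primes hs hr.out).2 hsr)
  · intro v hv y hy hyv u hu
    rw [mem_Um m hv] at hu ⊢
    obtain ⟨h1, t, ht, h2, h3⟩ := hsp v hv
    set g := hv.2.choose
    have hyσ : m.σ y = y := hy
    have h4 : (g⁻¹ * y * g) * xc hp (vec D l (D.nroots - 1)) t = xc hp (vec D l (D.nroots - 1)) t * (g⁻¹ * y * g) := by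
      rw [← h3]
      calc g⁻¹ * y * g * (g⁻¹ * v * g) = g⁻¹ * (y * v) * g := by group
        _ = g⁻¹ * v * g * (g⁻¹ * y * g) := by rw [hyv]; group
    obtain ⟨h5, -⟩ := Tb.comm_kk hp (locFin r) r ht h4
    have h6 := h5 _ hu.1
    have e1 : g⁻¹ * (y * u * y⁻¹) * g = g⁻¹ * y * g * (g⁻¹ * u * g) * (g⁻¹ * y * g)⁻¹ := by group
    have h7 : m.σ (g⁻¹ * u * g) = g⁻¹ * u * g := hu.2
    refine ⟨by rw [e1]; exact h6, ?_⟩
    change m.σ (g⁻¹ * (y * u * y⁻¹) * g) = _
    rw [e1]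
    simp only [map_mul, map_inv, h1, hyσ] at h7 ⊢
    rw [h7]
  · intro v hv y hy hyv hy1 s hs hsr hys
    obtain ⟨h1, t, ht, h2, h3⟩ := hsp v hv
    set g := hv.2.choose with hg
    have hyσ : m.σ y = y := hy
    have h4 : (g⁻¹ * y * g) * xc hp (vec D l (D.nroots - 1)) t = xc hp (vec D l (D.nroots - 1)) t * (g⁻¹ * y * g) := by
      rw [← h3]
      calc g⁻¹ * y * g * (g⁻¹ * v * g) = g⁻¹ * (y * v) * g := by group
        _ = g⁻¹ * v * g * (g⁻¹ * y * g) := by rw [hyv]; group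
    obtain ⟨h5, -⟩ := Tb.comm_kk hp (locFin r) r ht h4
    have h6 : m.σ (g⁻¹ * y * g) = g⁻¹ * y * g := by simp only [map_mul, map_inv, h1, hyσ]
    have h7 : (g⁻¹ * y * g) ^ s = 1 := by
      have e1 : (g⁻¹ * y * g) ^ s = g⁻¹ * y ^ s * g := by
        have := conj_pow (i := s) (a := g⁻¹) (b := y)
        rwa [inv_inv] at this
      rw [e1, hys]
      group
    have h8 := Tb.main_kk hp (locFin r) r (QF := QF m j (D.nroots - 1)) inf_le_left (finite_QF m) ht h4 (fun q hq => by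
      refine ⟨h5 q hq.1, ?_⟩
      have hq2 : m.σ q = q := hq.2
      change m.σ (g⁻¹ * y * g * q * (g⁻¹ * y * g)⁻¹) = _
      rw [map_mul, map_mul, map_inv, h6, hq2]) h7 ((Nat.coprime_primes hs hr.out).2 hsr)
      (fun d hd u hu hne => by
        obtain ⟨w, hw, hw2, hw3⟩ := S.h1 H hd.1 hd.2 ⟨u, hu.1, hne⟩ h2
        exact ⟨w, ⟨hw, hw2⟩, hw3⟩)
      (fun w hw hc => S.h2 H hw fun u hu hu2 => hc u ⟨hu, hu2⟩)
    rcases h8 with h8 | h8
    · exfalso
      apply hy1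
      have e1 : y = g * (g⁻¹ * y * g) * g⁻¹ := by group
      rw [e1, h8]
      group
    · have h9 : cmm (QF m j (D.nroots - 1)) (g⁻¹ * y * g) ≤ (cmm (Um m j (D.nroots - 1) v) y).comap (MulAut.conj g).toMonoidHom := by
        conv_lhs => rw [cmm]
        rw [Subgroup.closure_le]
        rintro _ ⟨u, hu, rfl⟩
        change g * (u * (g⁻¹ * y * g) * u⁻¹ * (g⁻¹ * y * g)⁻¹) * g⁻¹ ∈ cmm (Um m j (D.nroots - 1) v) y
        have e1 : g * (u * (g⁻¹ * y * g) * u⁻¹ * (g⁻¹ * y * g)⁻¹) * g⁻¹ =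
            (g * u * g⁻¹) * y * (g * u * g⁻¹)⁻¹ * y⁻¹ := by group
        rw [e1]
        refine mem_cmm ?_
        rw [mem_Um m hv, ← hg]
        have e2 : g⁻¹ * (g * u * g⁻¹) * g = u := by group
        rwa [e2]
      have h10 : g * xc hp (vec D l (D.nroots - 1)) t * g⁻¹ ∈ cmm (Um m j (D.nroots - 1) v) y := h9 h8
      rw [← h3] at h10
      have e1 : g * (g⁻¹ * v * g) * g⁻¹ = v := by group
      rwa [e1] at h10

theorem pow_of_Um (Tb : Tab D l j th) {v y : ↥(D.group (KK r))} (hy : y ∈ Um m j th v) :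
    m.σ y = y ∧ ∃ k, y ^ r ^ k = 1 := by
  obtain ⟨k, hk⟩ := pgroup_Um m Tb v ⟨y, hy⟩
  refine ⟨?_, k, congrArg Subtype.val hk⟩
  by_cases h : Vm m v
  · have h1 := (mem_Um m h).1 hy
    have h2 := h.2.choose_spec.1
    have h3 : m.σ (h.2.choose⁻¹ * y * h.2.choose) = h.2.choose⁻¹ * y * h.2.choose := h1.2
    simp only [map_mul, map_inv, h2] at h3
    exact mul_left_cancel (mul_right_cancel h3)
  · have h1 : Um m j th v = ⊥ := dif_neg h
    rw [h1, Subgroup.mem_bot] at hy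
    rw [hy, map_one]

theorem ule (Tb : Tab D l j th) (v : ↥(D.group (KK r))) : Um m j th v ≤ m.ι.range := by
  intro y hy
  obtain ⟨h1, k, hk⟩ := pow_of_Um m Tb hy
  exact pmem m h1 hk

theorem vmem (Tb : Tab D l j th) (hth : th = D.nroots - 1) {v : ↥(D.group (KK r))} (hv : Vm m v) : v ∈ m.ι.range := by
  subst hth
  obtain ⟨-, y, hy, t, ht, rfl⟩ := hv
  obtain ⟨k, hk⟩ := pow_of_QQ Tb (H351.RG.e_mem (e := xc (K := KK r) hp) (Or.inl rfl) t)
  refine pmem m (k := k) ?_ ?_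
  · rw [map_mul, map_mul, map_inv, hy, ht]
  · rw [conj_pow, hk]
    group

theorem pmem' {y : ↥(D.group (KK r))} (hy : y ∈ fixedSubgroup m.σ) (h1 : y ^ r = 1) : y ∈ m.ι.range :=
  pmem m (k := 1) hy (by rw [pow_one]; exact h1)

/-! ### the types -/

/-- the table and the parity -/
def LTab (D : ChevalleyDatum) (l j : ℕ) : Prop :=
  Tab D l j (D.nroots - 1) ∧ Odd (∑ i ∈ Finset.range l, rt D (D.nroots - 1) i)

theorem ltab_G2 : LTab chevG2 2 1 := ⟨tab_G2, by decide +kernel⟩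

theorem ltab_D4 : LTab chevD4 4 1 := ⟨tab_D4, by decide +kernel⟩

theorem ltab_F4 : LTab chevF4 4 3 := ⟨tab_F4, by decide +kernel⟩

theorem ltab_E6 : LTab chevE6 6 1 := ⟨tab_E6, by decide +kernel⟩

theorem ltab_E7 : LTab chevE7 7 0 := ⟨tab_E7, by decide +kernel⟩

theorem ltab_E8 : LTab chevE8 8 7 := ⟨tab_E8, by decide +kernel⟩

/-- **All the long root data, except `core` of `YData`.** -/
theorem long_root (T : LTab D l j) : LRData (fixedSubgroup m.σ) r (Vm m) (Um m j (D.nroots - 1)) ∧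
    (∀ v, Vm m v → v ∈ m.ι.range) ∧ (∀ v, Vm m v → Um m j (D.nroots - 1) v ≤ m.ι.range) ∧
    (∀ y ∈ fixedSubgroup m.σ, y ^ r = 1 → y ∈ m.ι.range) :=
  ⟨lrData m T.1 rfl T.2, fun _ hv => vmem m T.1 rfl hv, fun v _ => ule m T.1 v, fun _ hy h1 => pmem' m hy h1⟩

end Cfsg.Agent.H579.RG
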