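import Cfsg.Agent.H579.RG.LongAbs
import Cfsg.Agent.H579.RG.LongChk
import Cfsg.Agent.H167.EX.Tor
import Cfsg.Agent.KFacts.ChevTwoInst

/-!
# S3509, exceptional groups: the long root rule (helper579), the environment `Hs` of `D.group K`, `K` finite
-/

set_option autoImplicit false
set_option linter.unusedSectionVars false

namespace Cfsg.Agent.H579.RG

open CoxeterSystem Cfsg Cfsg.Lie Cfsg.Lie.ChevalleyDatum
open Cfsg.Agent.ChevalleyStructure Cfsg.Agent.ChevalleyStructure.Elts Cfsg.Agent.ChevalleyStructure.CoxeterGeom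
  Cfsg.Agent.ChevalleyStructure.CoxeterGeomTypes Cfsg.Agent.ChevalleyStructure.NPerm
open Cfsg.Agent.Tits.Roots Cfsg.Agent.Tits.Core Cfsg.Agent.Nodes Cfsg.Agent.Nodes.Reps Cfsg.Agent.Nodes.BNOf
  Cfsg.Agent.Nodes.RGDChev Cfsg.Agent.Nodes.Bruhat Cfsg.Agent.Nodes.Coroot Cfsg.Agent.KFacts.RgdTI
open Cfsg.Agent.KFacts.RgdField Cfsg.Agent.KFacts.RgdChevCoord Cfsg.Agent.BpExc.TorCent Cfsg.Agent.BpExc.TorChev
  Cfsg.Agent.BpExc.TowChev
open Cfsg.Agent.H225.PPow Cfsg.Agent.KFacts.ChevTwoInst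
open Cfsg.Agent.ChevalleyStructure.RootVecTab Cfsg.Agent.ChevalleyStructure.RootVec
open scoped commutatorElement

universe u

variable {D : ChevalleyDatum} {l : ℕ} {M : CoxeterMatrix (Fin l)} (hp : IsType D l M) {K : Type u} [Field K]
  {W : Type*} [Group W] (cs : CoxeterSystem M W) {j th : ℕ}

theorem mem_L1 {r : ℕ} : r ∈ L1 D j ↔ r < D.nroots ∧ rt D r j = 1 := by
  unfold L1
  rw [List.mem_filter, List.mem_range, beq_iff_eq]

theorem xc_vec {r : ℕ} (hr : r < D.nroots) (t : K) : xc hp (vec D l r) t = ex hp r t :=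
  Subtype.ext (coe_xc hp hr t)

theorem isU_iff {k : ℤ} : isU k = true ↔ k = 1 ∨ k = -1 := by
  unfold isU
  rw [Bool.or_eq_true, beq_iff_eq, beq_iff_eq]

theorem isU_ne {k : ℤ} (h : isU k = true) : (k : K) ≠ 0 := by
  rcases isU_iff.1 h with rfl | rfl <;> simp

theorem locFin_finite (K : Type u) [Field K] [Finite K] : LocFin K := fun _ _ =>
  ⟨⊤, Finite.of_injective (fun x : ↥(⊤ : Subfield K) => (x : K)) Subtype.val_injective, fun x _ => Subfield.mem_top x⟩

/-- the structure constants -/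
noncomputable def cx (D : ChevalleyDatum) (l th : ℕ) (x : Fin l → ℤ) : ℤ :=
  -kf D (idx D l x, idx D l (vec D l th - x))

namespace Tab

variable (Tb : Tab D l j th)

include Tb

/-- the node -/
def jf : Fin l := ⟨j, Tb.jl⟩

theorem dif_spec {i : Fin l} {m : ℤ} {c d : ℕ × ℕ} (h : dif D l i m c d = true) :
    vec D l c.1 = vec D l d.1 + m • sr i := by
  funext k
  have h1 := List.all_eq_true.1 h k (List.mem_range.2 k.2)
  rw [beq_iff_eq] at h1
  rw [Pi.add_apply, Pi.smul_apply, vec_apply, vec_apply, h1]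
  congr 1
  by_cases hk : k = i
  · subst hk
    simp [sr_self]
  · rw [sr_ne hk, if_neg]
    · simp
    · simpa [beq_iff_eq, Fin.ext_iff] using hk

theorem op_spec {c : ℕ × ℕ} (hc : c ∈ opL D j) :
    c.1 < D.nroots ∧ c.2 < D.nroots ∧ vec D l c.1 + vec D l c.2 = vec D l th ∧ c.1 ≠ c.2 ∧
      D.commTerms c.2 c.1 = [(th, kf D c, 1, 1)] ∧ ∀ s ∈ L1 D j, s = c.1 ∨ s = c.2 ∨ D.commTerms s c.1 = [] := by
  have h1 := List.all_eq_true.1 Tb.op c hc
  have h2 := List.all_eq_true.1 Tb.cov2 c hc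
  simp only [Bool.and_eq_true, Bool.or_eq_true, beq_iff_eq, bne_iff_ne, decide_eq_true_eq, List.all_eq_true,
    List.mem_range] at h1 h2
  obtain ⟨⟨⟨h3, h4⟩, h5⟩, h6⟩ := h1
  refine ⟨h2.1, h2.2, ?_, h4, h5, fun s hs => ?_⟩
  · funext i
    exact h3 i i.2
  · rcases h6 s hs with (h | h) | h
    · exact Or.inl h
    · exact Or.inr (Or.inl h)
    · exact Or.inr (Or.inr h)

theorem pair {r : ℕ} (hr : r < D.nroots) (h1 : rt D r j = 1) : ∃ s, (r, s) ∈ opL D j := by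
  have h2 := List.all_eq_true.1 Tb.cov r (mem_L1.2 ⟨hr, h1⟩)
  rw [List.any_eq_true] at h2
  obtain ⟨⟨a, b⟩, hc, h3⟩ := h2
  rw [beq_iff_eq] at h3
  obtain rfl : a = r := h3
  exact ⟨b, hc⟩

theorem mem_L1_of {c : ℕ × ℕ} (hc : c ∈ opL D j) : c.1 ∈ L1 D j ∧ c.2 ∈ L1 D j := by
  have h1 := List.of_mem_zip (show (c.1, c.2) ∈ (L1 D j).zip (L1 D j).reverse from hc)
  exact ⟨h1.1, List.mem_reverse.1 h1.2⟩

include hp in
theorem cx_eq {c : ℕ × ℕ} (hc : c ∈ opL D j) : cx D l th (vec D l c.1) = -kf D c := by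
  obtain ⟨h1, h2, h3, -, -, -⟩ := Tb.op_spec hc
  unfold cx
  rw [← h3, add_sub_cancel_left, idx_vec hp h1, idx_vec hp h2]

theorem lev_sr [Finite W] (i : Fin l) : cpr cs hp.isCartan (sr i) (vec D l th) = if i = Tb.jf then 1 else 0 := by
  have h1 := List.all_eq_true.1 Tb.lev i (List.mem_range.2 i.2)
  rw [beq_iff_eq, carB_eq] at h1
  rw [← vec_simple hp, cpr_vec hp cs Tb.th_lt _ (simple_lt hp.inList (lt_rank hp i)), h1]
  by_cases h : i = Tb.jf
  · subst h
    rw [if_pos rfl, if_pos]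
    exact beq_iff_eq.2 rfl
  · rw [if_neg h, if_neg]
    rw [beq_iff_eq]
    exact fun h2 => h (Fin.ext h2)

theorem lev' [Finite W] (x : Fin l → ℤ) : cpr cs hp.isCartan x (vec D l th) = x Tb.jf := by
  have h0 := isRoot_vec hp cs Tb.th_lt
  have h1 : x = ∑ i, x i • (sr i : Fin l → ℤ) := by
    conv_lhs => rw [← Finset.univ_sum_single x]
    refine Finset.sum_congr rfl fun i _ => ?_
    unfold sr
    rw [← Pi.single_smul, smul_eq_mul, mul_one]
  rw [← ell_apply cs hp.isCartan h0, h1, map_sum]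
  have h2 : ∀ i, ell cs hp.isCartan h0 (x i • sr i) = if i = Tb.jf then x i else 0 := by
    intro i
    rw [map_zsmul, ell_apply, Tb.lev_sr hp cs i, smul_eq_mul]
    split_ifs <;> simp
  rw [Finset.sum_congr rfl fun i _ => h2 i, Finset.sum_ite_eq' Finset.univ Tb.jf, if_pos (Finset.mem_univ _), ← h1]

include hp cs in
theorem lev_th [Finite W] : vec D l th Tb.jf = 2 := by
  rw [← Tb.lev' hp cs (vec D l th), cpr_self cs _ (isRoot_vec hp cs Tb.th_lt)]

theorem top' {r : ℕ} (hr : r < D.nroots) (h : 2 ≤ vec D l r Tb.jf) : r = th := by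
  have h1 := List.all_eq_true.1 Tb.top r (List.mem_range.2 hr)
  rw [Bool.or_eq_true, decide_eq_true_eq, beq_iff_eq] at h1
  rcases h1 with h1 | h1
  · have h2 : rt D r j = vec D l r Tb.jf := rfl
    omega
  · exact h1

theorem LR [Finite W] [Finite K] (p : ℕ) [Fact p.Prime] [CharP K p] :
    Cfsg.Agent.KFacts.RgdTI.LR (rgd (K := K) hp cs p) (vec D l th) := by
  have hth := Tb.th_lt
  refine ⟨isRoot_vec hp cs hth, fun x hx hc u hu v hv => ?_⟩
  obtain ⟨r, hr, rfl⟩ := (isRoot_iff hp cs _).1 hx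
  rw [Tb.lev' hp cs] at hc
  obtain ⟨a, rfl⟩ := (mem_XX_vec hp hr).1 hu
  obtain ⟨b, rfl⟩ := (mem_XX_vec hp hth).1 hv
  by_cases h1 : r = th
  · subst h1
    rw [← ex_add hp, ← ex_add hp, add_comm]
  have h2 : r ≠ D.neg th := by
    rintro rfl
    rw [vec_neg hp hth, Pi.neg_apply, Tb.lev_th hp cs] at hc
    omega
  have h3 := List.all_eq_true.1 Tb.lr r (List.mem_range.2 hr)
  rw [Bool.or_eq_true, Bool.or_eq_true, decide_eq_true_eq, beq_iff_eq, beq_iff_eq] at h3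
  have h4 : D.commTerms th r = [] := by
    rcases h3 with (h3 | h3) | h3
    · have h5 : rt D r j = vec D l r Tb.jf := rfl
      omega
    · exact absurd h3 h1
    · exact h3
  rw [ex_comm hp hth hr h1 h2, h4, List.map_nil, List.prod_nil, mul_one]

include hp in
theorem ne_neg {r s : ℕ} (hr : r < D.nroots) (h1 : vec D l r Tb.jf = 1) (h2 : vec D l s Tb.jf = 1) : s ≠ D.neg r := by
  rintro rfl
  rw [vec_neg hp hr, Pi.neg_apply, h1] at h2
  omega

include hp in
theorem ex_comm0 {r s : ℕ} (hr : r < D.nroots) (hs : s < D.nroots) (h1 : vec D l r Tb.jf = 1)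
    (h2 : vec D l s Tb.jf = 1) (h : vec D l r + vec D l s ≠ vec D l th) (t u : K) :
    ex hp r t * ex hp s u = ex hp s u * ex hp r t := by
  by_cases h3 : s = r
  · subst h3
    rw [← ex_add hp, ← ex_add hp, add_comm]
  obtain ⟨r', hr'⟩ := Tb.pair hr h1
  obtain ⟨-, h5, h6, -, -, h8⟩ := Tb.op_spec hr'
  rcases h8 s (mem_L1.2 ⟨hs, h2⟩) with h9 | h9 | h9
  · exact absurd h9 h3
  · exact absurd h6 (by rw [← h9]; exact h)
  · rw [ex_comm hp hs hr (fun h => h3 h.symm) (Tb.ne_neg hp hs h2 h1), h9, List.map_nil, List.prod_nil, mul_one]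

include hp cs in
theorem ex_comm1 [Finite W] [Finite K] (p : ℕ) [Fact p.Prime] [CharP K p] {c : ℕ × ℕ} (hc : c ∈ opL D j) (s t : K) :
    ⁅ex hp c.1 s, ex hp c.2 t⁆ = ex hp th (-(kf D c : K) * s * t) := by
  obtain ⟨h1, h2, h3, h4, h5, -⟩ := Tb.op_spec hc
  obtain ⟨h6, h7⟩ := Tb.mem_L1_of hc
  have h8 := ex_comm hp (K := K) h2 h1 h4 (Tb.ne_neg hp h2 (mem_L1.1 h7).2 (mem_L1.1 h6).2) t s
  rw [h5] at h8
  simp only [List.map_cons, List.map_nil, List.prod_cons, List.prod_nil, mul_one, pow_one] at h8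
  have hL := Tb.LR hp cs (K := K) p
  have hz : ∀ r, r < D.nroots → vec D l r Tb.jf = 1 → ∀ a b : K, ex hp r a * ex hp th b = ex hp th b * ex hp r a := by
    intro r hr h1 a b
    refine hL.comm _ (isRoot_vec hp _ hr) ?_ _ ((mem_XX_vec hp hr).2 ⟨a, rfl⟩) _ ((mem_XX_vec hp Tb.th_lt).2 ⟨b, rfl⟩)
    rw [Tb.lev' hp cs, h1]
    norm_num
  have h9 := hz c.1 h1 (mem_L1.1 h6).2 s ((kf D c : K) * -t * s)
  have h10 := hz c.2 h2 (mem_L1.1 h7).2 t ((kf D c : K) * -t * s)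
  rw [commutatorElement_def, h8, mul_assoc (ex hp c.2 t), h9]
  have e : (kf D c : K) * -t * s = -(kf D c : K) * s * t := by ring
  rw [e] at h10 ⊢
  rw [← mul_assoc, h10]
  group

/-- the lattice argument -/
theorem phi_sr [Finite K] (p : ℕ) [Fact p.Prime] [CharP K p] {φ : (Fin l → ℤ) → K} (h0 : φ 0 = 1)
    (hadd : ∀ x y, φ (x + y) = φ x * φ y) (h1 : ∀ c ∈ opL D j, (kf D c : K) ≠ 0 → φ (vec D l c.1) = 1)
    (hs : vec D l (D.simple j) = sr Tb.jf) (i : Fin l) : φ (sr i) = 1 := by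
  by_cases hij : i = Tb.jf
  · subst hij
    have h2 := Tb.torj
    rw [List.any_eq_true] at h2
    obtain ⟨c, hc, h3⟩ := h2
    rw [Bool.and_eq_true, beq_iff_eq] at h3
    rw [← hs, ← h3.2]
    exact h1 c hc (isU_ne h3.1)
  have key : ∀ {m : ℤ} {c d : ℕ × ℕ}, dif D l i m c d = true → φ (vec D l c.1) = 1 → φ (vec D l d.1) = 1 →
      φ (m • sr i) = 1 := by
    intro m c d h2 h3 h4
    rw [Tb.dif_spec h2, hadd, h4, one_mul] at h3
    exact h3
  have h2 := List.all_eq_true.1 Tb.tor i (List.mem_range.2 i.2)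
  rw [Bool.or_eq_true, Bool.or_eq_true, beq_iff_eq] at h2
  rcases h2 with (h2 | h2) | h2
  · exact absurd (Fin.ext h2) hij
  · simp only [List.any_eq_true, Bool.and_eq_true] at h2
    obtain ⟨c, hc, d, hd, ⟨h3, h4⟩, h5⟩ := h2
    have h6 := key h3 (h1 c hc (isU_ne h4)) (h1 d hd (isU_ne h5))
    rwa [one_smul] at h6
  · rw [List.any_eq_true] at h2
    obtain ⟨m, hm, h2⟩ := h2
    simp only [List.any_eq_true, Bool.and_eq_true, Bool.or_eq_true, beq_iff_eq] at h2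
    obtain ⟨⟨c, hc, d, hd, ⟨h3, h4⟩, h5⟩, ⟨c', hc', d', hd', ⟨h3', h4'⟩, h5'⟩⟩ := h2
    have hmp : ∃ n : ℕ, n.Prime ∧ (n : ℤ) = m := by
      simp only [List.mem_cons, List.not_mem_nil, or_false] at hm
      rcases hm with rfl | rfl
      · exact ⟨2, Nat.prime_two, rfl⟩
      · exact ⟨3, Nat.prime_three, rfl⟩
    obtain ⟨n, hn, rfl⟩ := hmp
    by_cases hm0 : ((n : ℤ) : K) = 0
    · have h6 := key h3 (h1 c hc (isU_ne h4)) (h1 d hd (isU_ne h5))
      rw [H167.EX.phi_smul h0 hadd] at h6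
      have h7 : n = p := by
        have h8 : ((n : ℕ) : K) = 0 := by simpa using hm0
        rw [CharP.cast_eq_zero_iff K p] at h8
        exact ((Nat.prime_dvd_prime_iff_eq Fact.out hn).1 h8).symm
      subst h7
      have h9 : frobenius K n (φ (sr i)) = frobenius K n 1 := by
        rw [frobenius_def, h6, map_one]
      exact frobenius_inj K n h9
    · have hne : ∀ {k : ℤ}, (isU k = true ∨ k ^ 2 = (n : ℤ) ^ 2) → (k : K) ≠ 0 := by
        intro k hk
        rcases hk with hk | hk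
        · exact isU_ne hk
        · intro h8
          apply hm0
          have h9 : ((k ^ 2 : ℤ) : K) = (((n : ℤ) ^ 2 : ℤ) : K) := by rw [hk]
          rw [Int.cast_pow, Int.cast_pow, h8, zero_pow two_ne_zero] at h9
          exact (pow_eq_zero_iff two_ne_zero).1 h9.symm
      have h6 := key h3' (h1 c' hc' (hne h4')) (h1 d' hd' (hne h5'))
      rwa [one_smul] at h6

/-- **The environment of `D.group K`, `K` finite.** -/
theorem hs [Finite W] [Finite K] (p : ℕ) [Fact p.Prime] [CharP K p] :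
    Hs (rgd (K := K) hp cs p) (xc (K := K) hp) (vec D l th) Tb.jf (cx D l th) where
  mem x hx g := by
    obtain ⟨r, hr, rfl⟩ := (isRoot_iff hp cs _).1 hx
    rw [mem_XX_vec hp hr]
    simp only [xc_vec hp hr]
  add x hx s t := by
    obtain ⟨r, hr, rfl⟩ := (isRoot_iff hp cs _).1 hx
    rw [xc_vec hp hr, xc_vec hp hr, xc_vec hp hr, ex_add]
  inj x hx := by
    obtain ⟨r, hr, rfl⟩ := (isRoot_iff hp cs _).1 hx
    exact xc_inj hp hr
  lr := Tb.LR hp cs p
  lev x := Tb.lev' hp cs x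
  top x hx h := by
    obtain ⟨r, hr, rfl⟩ := (isRoot_iff hp cs _).1 hx
    rw [Tb.top' hr h]
  sub x hx h := by
    obtain ⟨r, hr, rfl⟩ := (isRoot_iff hp cs _).1 hx
    obtain ⟨s, hs⟩ := Tb.pair hr h
    obtain ⟨-, h5, h6, -⟩ := Tb.op_spec hs
    rw [← h6, add_sub_cancel_left]
    exact isRoot_vec hp cs h5
  comm0 x y hx hy h1 h2 h3 s t := by
    obtain ⟨r, hr, rfl⟩ := (isRoot_iff hp cs _).1 hx
    obtain ⟨r', hr', rfl⟩ := (isRoot_iff hp cs _).1 hy
    rw [xc_vec hp hr, xc_vec hp hr']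
    exact Tb.ex_comm0 hp hr hr' h1 h2 h3 s t
  comm1 x hx h s t := by
    obtain ⟨r, hr, rfl⟩ := (isRoot_iff hp cs _).1 hx
    obtain ⟨r', hc⟩ := Tb.pair hr h
    obtain ⟨-, h5, h6, -⟩ := Tb.op_spec hc
    rw [← h6, add_sub_cancel_left, xc_vec hp hr, xc_vec hp h5, h6, xc_vec hp Tb.th_lt]
    have h7 := Tb.ex_comm1 hp cs p hc s t
    have h8 := Tb.cx_eq hp hc
    simp only at h7 h8
    rw [h7, h8, Int.cast_neg]
  move i hi := by
    have h2 := List.all_eq_true.1 Tb.move i (List.mem_range.2 i.2)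
    simp only [Bool.or_eq_true, beq_iff_eq, List.any_eq_true, Bool.and_eq_true, bne_iff_ne] at h2
    rcases h2 with h2 | ⟨c, hc, h3, h4⟩
    · exact absurd (Fin.ext h2) hi
    · obtain ⟨h5, -⟩ := Tb.op_spec hc
      refine ⟨vec D l c.1, isRoot_vec hp cs h5, (mem_L1.1 (Tb.mem_L1_of hc).1).2, ?_, ?_⟩
      · rw [Tb.cx_eq hp hc, Int.cast_neg]
        exact neg_ne_zero.2 (isU_ne h3)
      · rw [pairing_vec hp i h5]
        exact h4
  tor t ht h := by
    obtain ⟨φ, h0, hadd, hφ⟩ := chAdd hp cs p t ht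
    have h1 : ∀ c ∈ opL D j, (kf D c : K) ≠ 0 → φ (vec D l c.1) = 1 := by
      intro c hc hk
      obtain ⟨h5, -⟩ := Tb.op_spec hc
      rw [← hφ _ (isRoot_vec hp cs h5)]
      have h6 := h (vec D l c.1) (isRoot_vec hp cs h5) (mem_L1.1 (Tb.mem_L1_of hc).1).2 (by
        rw [Tb.cx_eq hp hc, Int.cast_neg]
        exact neg_ne_zero.2 hk) 1
      have h7 := (act hp h5 ht).2 1
      rw [h6, mul_inv_cancel_right, mul_one] at h7
      exact (xc_inj hp h5 h7).symm
    have h2 := Tb.phi_sr (K := K) p h0 hadd h1 (vec_simple hp Tb.jf)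
    have h3 := H167.EX.phi_one h0 hadd h2
    refine H167.EX.eq_one_of_ch hp p (locFin_finite K) ht fun s hs => ?_
    rw [hφ _ (isRoot_vec hp cs hs)]
    exact h3 _
  tora t ht s hs h u := by
    have h1 := (act hp Tb.th_lt ht).2 s
    rw [h, mul_inv_cancel_right] at h1
    have h2 := xc_inj hp Tb.th_lt h1
    have h3 : ch hp (vec D l th) t = 1 := by
      have h4 : (ch hp (vec D l th) t - 1) * s = 0 := by rw [sub_mul, one_mul, ← h2, sub_self]
      exact sub_eq_zero.1 ((mul_eq_zero.1 h4).resolve_right hs)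
    have h4 := (act hp Tb.th_lt ht).2 u
    rw [h3, one_mul] at h4
    exact mul_inv_eq_iff_eq_mul.1 h4

end Tab

end Cfsg.Agent.H579.RG
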