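import Cfsg.Agent.H579.RG.LongLR
import Cfsg.Agent.H169.RG.LRG

/-!
# S3509, exceptional groups: the long root elements `Vm m` are those of `H169.RG.LR` (helper579)
-/

set_option autoImplicit false
set_option linter.unusedSectionVars false

namespace Cfsg.Agent.H579.RG

open Cfsg Cfsg.Lie Cfsg.Lie.ChevalleyDatum
open Cfsg.Agent.Nodes.RGDChev Cfsg.Agent.KFacts.RgdChevCoord Cfsg.Agent.BpExc
open Cfsg.Agent.H225.PPow
open Cfsg.Agent.H469.Exc Cfsg.Agent.H316.U6 Cfsg.Agent.H368.RG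

universe u v

variable {D : ChevalleyDatum} {l : ℕ} {M : CoxeterMatrix (Fin l)} {hp : IsType D l M} {j : ℕ}
  {r q : ℕ} [hr : Fact r.Prime] {K₀ : Type v} [Group K₀] (m : MData hp r q K₀)

theorem Vm_iff (hpos : 0 < D.nroots) {v : ↥(D.group (KK r))} : Vm m v ↔ H169.RG.LR m v := by
  have hlt : D.nroots - 1 < D.nroots := by omega
  constructor
  · rintro ⟨h1, y, hy, t, ht, hv⟩
    refine ⟨h1, _, ⟨y, hy, rfl⟩, ?_⟩
    rw [H169.RG.mem_cjS]
    have e : y⁻¹ * v * y = xc hp (vec D l (D.nroots - 1)) t := by rw [hv]; group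
    rw [e]
    refine ⟨(mem_XX_vec hp hlt).2 ⟨t, (xc_vec hp hlt t).symm⟩, ht⟩
  · rintro ⟨h1, _, ⟨y, hy, rfl⟩, hv⟩
    rw [H169.RG.mem_cjS] at hv
    obtain ⟨h2, h3⟩ := hv
    obtain ⟨t, ht⟩ := (mem_XX_vec hp hlt).1 h2
    rw [← xc_vec hp hlt] at ht
    refine ⟨h1, y, hy, t, ?_, ?_⟩
    · rw [ht]; exact h3
    · rw [ht]; group

theorem LTab.pos (T : LTab D l j) : 0 < D.nroots := by
  have := T.1.th_lt
  omega

/-- **The long root data in terms of `H169.RG.LR m`.** -/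
theorem long_root' (T : LTab D l j) :
    LRData (fixedSubgroup m.σ) r (H169.RG.LR m) (Um m j (D.nroots - 1)) ∧
    (∀ v, H169.RG.LR m v → v ∈ m.ι.range) ∧ (∀ v, H169.RG.LR m v → Um m j (D.nroots - 1) v ≤ m.ι.range) ∧
    (∀ y ∈ fixedSubgroup m.σ, y ^ r = 1 → y ∈ m.ι.range) := by
  obtain ⟨h1, h2, h3, h4⟩ := long_root m T
  exact ⟨LRmono h1 fun v hv => (Vm_iff m T.pos).2 hv, fun v hv => h2 v ((Vm_iff m T.pos).2 hv),
    fun v hv => h3 v ((Vm_iff m T.pos).2 hv), h4⟩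

end Cfsg.Agent.H579.RG
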